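import Mathlib
import Cfsg.Prelude.Def_LinearParabolics

/-!
Parabolic subgroups of `GL_n` and Young subgroups of `Sym(n)` for a general monotone labelling of
positions; Gaussian elimination (Bruhat decomposition); the rank invariants of double cosets.
-/

set_option autoImplicit false
set_option linter.unusedSectionVars false
set_option linter.unusedSimpArgs false
set_option linter.style.haveILetI false

open scoped MatrixGroups
open Matrix

namespace Cfsg.Agent.Lib.Classical.Flags

variable {n : ℕ} {F : Type*} [Field F]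

/-- Block upper triangular invertible matrices for the labelling `ℓ`. -/
def Par (F : Type*) [Field F] (ℓ : Fin n → ℕ) : Subgroup (GL (Fin n) F) where
  carrier := {g | (g : Matrix (Fin n) (Fin n) F).BlockTriangular ℓ}
  mul_mem' := fun {a} {b} ha hb => by
    change ((a : Matrix (Fin n) (Fin n) F) * (b : Matrix (Fin n) (Fin n) F)).BlockTriangular ℓ
    exact Matrix.BlockTriangular.mul ha hb
  one_mem' := by
    change (1 : Matrix (Fin n) (Fin n) F).BlockTriangular ℓ
    exact Matrix.blockTriangular_one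
  inv_mem' := fun {a} ha => by
    change ((a⁻¹ : GL (Fin n) F) : Matrix (Fin n) (Fin n) F).BlockTriangular ℓ
    have : Invertible (a : Matrix (Fin n) (Fin n) F) := a.invertible
    rw [Matrix.coe_units_inv]
    exact Matrix.blockTriangular_inv_of_blockTriangular ha

lemma mem_Par {ℓ : Fin n → ℕ} {g : GL (Fin n) F} :
    g ∈ Par F ℓ ↔ (g : Matrix (Fin n) (Fin n) F).BlockTriangular ℓ := Iff.rfl

lemma parabolicGL_eq (μ : Fin n → ℕ) : Cfsg.parabolicGL n F μ = Par F (Cfsg.compLabel μ) := rfl

/-- Label-preserving permutations. -/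
def Yng (ℓ : Fin n → ℕ) : Subgroup (Equiv.Perm (Fin n)) where
  carrier := {σ | ∀ i, ℓ (σ i) = ℓ i}
  mul_mem' := fun {a} {b} ha hb i => by
    change ℓ (a (b i)) = ℓ i
    rw [ha, hb]
  one_mem' := fun _ => rfl
  inv_mem' := fun {a} ha i => by
    have h := ha (a⁻¹ i)
    have e : a (a⁻¹ i) = i := by simp
    rw [e] at h
    exact h.symm

lemma mem_Yng {ℓ : Fin n → ℕ} {σ : Equiv.Perm (Fin n)} : σ ∈ Yng ℓ ↔ ∀ i, ℓ (σ i) = ℓ i := Iff.rfl

lemma youngSubgroup_eq (μ : Fin n → ℕ) : Cfsg.youngSubgroup μ = Yng (Cfsg.compLabel μ) := rfl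

/-- The permutation matrix: `e_k ↦ e_{w k}`. -/
def pm (F : Type*) [Field F] (w : Equiv.Perm (Fin n)) : Matrix (Fin n) (Fin n) F :=
  fun i j => if i = w j then 1 else 0

lemma pm_one : pm F (1 : Equiv.Perm (Fin n)) = 1 := by
  ext i j
  simp only [pm, Matrix.one_apply, Equiv.Perm.coe_one, id_eq]
  rfl

lemma pm_mul (w w' : Equiv.Perm (Fin n)) : pm F (w * w') = pm F w * pm F w' := by
  ext i j
  simp only [pm, Matrix.mul_apply, Equiv.Perm.mul_apply]
  rw [Finset.sum_eq_single (w' j)]
  · simp only [if_true, mul_one]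
    rfl
  · intro b _ hb
    simp [hb]
  · simp

/-- The permutation matrix as an element of `GL`. -/
def Pm (F : Type*) [Field F] (w : Equiv.Perm (Fin n)) : GL (Fin n) F where
  val := pm F w
  inv := pm F w⁻¹
  val_inv := by rw [← pm_mul, mul_inv_cancel, pm_one]
  inv_val := by rw [← pm_mul, inv_mul_cancel, pm_one]

lemma Pm_val (w : Equiv.Perm (Fin n)) : ((Pm F w : GL (Fin n) F) : Matrix (Fin n) (Fin n) F) = pm F w := rfl

lemma Pm_mul (w w' : Equiv.Perm (Fin n)) : Pm F (w * w') = Pm F w * Pm F w' := by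
  apply Units.ext
  exact pm_mul w w'

lemma Pm_mem_Par {ℓ : Fin n → ℕ} {y : Equiv.Perm (Fin n)} (hy : y ∈ Yng ℓ) : Pm F y ∈ Par F ℓ := by
  rw [mem_Par]
  intro i j hij
  change pm F y i j = 0
  simp only [pm]
  rw [if_neg]
  rintro rfl
  rw [hy j] at hij
  exact lt_irrefl _ hij

/-- The upper triangular group. -/
abbrev Bor (F : Type*) [Field F] : Subgroup (GL (Fin n) F) := Par F (fun i : Fin n => i.val)

lemma Bor_le {ℓ : Fin n → ℕ} (hℓ : Monotone ℓ) : Bor (n := n) F ≤ Par F ℓ := by
  intro g hg i j hij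
  apply hg
  have : j < i := by
    by_contra h
    exact absurd (hℓ (not_lt.mp h)) (not_le.mpr hij)
  exact this

/-- An upper triangular matrix with non-zero diagonal as an element of `Bor`. -/
lemma exists_Bor (A : Matrix (Fin n) (Fin n) F) (hA : ∀ i j, j < i → A i j = 0) (hd : ∀ i, A i i ≠ 0) :
    ∃ g ∈ Bor (n := n) F, ∀ x y, (g : Matrix (Fin n) (Fin n) F) x y = A x y := by
  have hB : A.BlockTriangular id := fun i j hij => hA i j hij
  have hdet : A.det ≠ 0 := by
    rw [Matrix.det_of_isUpperTriangular hB]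
    exact Finset.prod_ne_zero_iff.mpr (fun i _ => hd i)
  refine ⟨Matrix.GeneralLinearGroup.mkOfDetNeZero A hdet, ?_, fun _ _ => rfl⟩
  intro i j hij
  exact hA i j hij

/-- `Red k h`: the rows of index at least `k` are unit vectors, whose columns are also unit vectors. -/
def Red (k : ℕ) (h : Matrix (Fin n) (Fin n) F) : Prop :=
  ∀ i : Fin n, k ≤ i.val → ∃ c : Fin n, h i c = 1 ∧ (∀ j, j ≠ c → h i j = 0) ∧ (∀ x, x ≠ i → h x c = 0)

/-- Clearing the row `i₀` and the column `j`. -/
lemma Red_step {k : ℕ} (i₀ : Fin n) (hk : i₀.val = k) (g : GL (Fin n) F)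
    (hg : Red (k + 1) (g : Matrix (Fin n) (Fin n) F)) :
    ∃ b ∈ Bor (n := n) F, ∃ b' ∈ Bor (n := n) F,
      Red k ((b * g * b' : GL (Fin n) F) : Matrix (Fin n) (Fin n) F) := by
  classical
  set h : Matrix (Fin n) (Fin n) F := (g : Matrix (Fin n) (Fin n) F) with hh
  -- the row `i₀` is non-zero
  have hne : ∃ j, h i₀ j ≠ 0 := by
    by_contra hall
    push Not at hall
    have hdet : h.det ≠ 0 := by
      have : IsUnit (g : Matrix (Fin n) (Fin n) F) := g.isUnit
      have := (Matrix.isUnit_iff_isUnit_det _).mp this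
      exact this.ne_zero
    exact hdet (Matrix.det_eq_zero_of_row_eq_zero i₀ hall)
  -- the leftmost non-zero entry
  have hex : ∃ j, h i₀ j ≠ 0 ∧ ∀ j', j' < j → h i₀ j' = 0 := by
    let S := Finset.univ.filter (fun j => h i₀ j ≠ 0)
    have hS : S.Nonempty := by
      obtain ⟨j, hj⟩ := hne
      exact ⟨j, by simp [S, hj]⟩
    refine ⟨S.min' hS, (Finset.mem_filter.mp (S.min'_mem hS)).2, ?_⟩
    intro j' hj'
    by_contra hne'
    have : j' ∈ S := by simp [S, hne']
    exact absurd (S.min'_le _ this) (not_le.mpr hj')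
  obtain ⟨j, hc, hleft⟩ := hex
  set c := h i₀ j with hcdef
  -- entries of rows below `i₀` in the column `j` vanish
  have hbelow : ∀ i : Fin n, i₀ < i → h i j = 0 := by
    intro i hi
    obtain ⟨c', h1, h2, h3⟩ := hg i (by have : i₀.val < i.val := hi; omega)
    by_cases hj : j = c'
    · subst hj
      exact absurd (h3 i₀ (ne_of_lt hi)) hc
    · exact h2 j hj
  -- the right operation
  obtain ⟨b', hb', hb'v⟩ := exists_Bor (F := F)
    (fun x y => (if x = y then 1 else 0) + (if x = j ∧ j < y then - (h i₀ y / c) else 0))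
    (by
      intro x y hxy
      rw [if_neg (ne_of_gt hxy), if_neg]
      · simp
      · rintro ⟨rfl, h2⟩
        exact absurd (lt_trans hxy h2) (lt_irrefl _))
    (by
      intro x
      rw [if_pos rfl, if_neg]
      · simp
      · rintro ⟨rfl, h2⟩
        exact absurd h2 (lt_irrefl _))
  -- the product with the right operation
  set h1 : Matrix (Fin n) (Fin n) F := h * (b' : Matrix (Fin n) (Fin n) F) with hh1
  have hh1v : ∀ x y, h1 x y = h x y + (if j < y then h x j * (- (h i₀ y / c)) else 0) := by
    intro x y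
    rw [hh1, Matrix.mul_apply]
    simp only [hb'v]
    have : ∀ z, h x z * ((if z = y then 1 else 0) + (if z = j ∧ j < y then - (h i₀ y / c) else 0)) =
        (if z = y then h x y else 0) + (if z = j then (if j < y then h x j * (- (h i₀ y / c)) else 0) else 0) := by
      intro z
      by_cases h1 : z = y
      · subst h1
        by_cases h2 : z = j
        · subst h2
          simp
        · simp [h2]
      · by_cases h2 : z = j
        · subst h2
          by_cases h3 : z < y <;> simp [h1, h3]
        · simp [h1, h2]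
    simp only [this]
    rw [Finset.sum_add_distrib]
    simp
  -- the row `i₀` of `h1`
  have hrow : ∀ y, h1 i₀ y = if y = j then c else 0 := by
    intro y
    rw [hh1v]
    by_cases h2 : y = j
    · subst h2
      simp [hcdef]
    · rw [if_neg h2]
      by_cases h3 : j < y
      · rw [if_pos h3, ← hcdef]
        field_simp
        ring
      · rw [if_neg h3, hleft y (lt_of_le_of_ne (not_lt.mp h3) h2), add_zero]
  -- the left operation
  obtain ⟨b, hb, hbv⟩ := exists_Bor (F := F)
    (fun x y => (if x = y then (if x = i₀ then c⁻¹ else 1) else 0) + (if x < i₀ ∧ y = i₀ then - (h1 x j / c) else 0))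
    (by
      intro x y hxy
      rw [if_neg (ne_of_gt hxy), if_neg]
      · simp
      · rintro ⟨h2, h3⟩
        rw [h3] at hxy
        exact absurd (lt_trans hxy h2) (lt_irrefl _))
    (by
      intro x
      have h4 : ¬ (x < i₀ ∧ x = i₀) := fun hh2 => (ne_of_lt hh2.1) hh2.2
      rw [if_pos rfl, if_neg h4]
      by_cases h2 : x = i₀
      · simp [h2, hc]
      · simp [h2])
  have hfinal : ∀ x y, ((b * g * b' : GL (Fin n) F) : Matrix (Fin n) (Fin n) F) x y =
      (if x = i₀ then c⁻¹ else 1) * h1 x y + (if x < i₀ then (- (h1 x j / c)) * h1 i₀ y else 0) := by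
    intro x y
    have e : ((b * g * b' : GL (Fin n) F) : Matrix (Fin n) (Fin n) F) =
        (b : Matrix (Fin n) (Fin n) F) * h1 := by
      rw [Units.val_mul, Units.val_mul, hh1, hh, Matrix.mul_assoc]
    rw [e, Matrix.mul_apply]
    simp only [hbv]
    have : ∀ z, ((if x = z then (if x = i₀ then c⁻¹ else 1) else 0) + (if x < i₀ ∧ z = i₀ then - (h1 x j / c) else 0)) * h1 z y =
        (if z = x then (if x = i₀ then c⁻¹ else 1) * h1 x y else 0) +
          (if z = i₀ then (if x < i₀ then (- (h1 x j / c)) * h1 i₀ y else 0) else 0) := by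
      intro z
      by_cases h1 : z = x
      · subst h1
        by_cases h2 : z = i₀
        · subst h2
          simp
        · simp [h2]
      · have h1' : ¬ x = z := fun e => h1 e.symm
        by_cases h2 : z = i₀
        · subst h2
          by_cases h3 : x < z <;> simp [h1, h1', h3]
        · simp [h1, h1', h2]
    simp only [this]
    rw [Finset.sum_add_distrib]
    simp
  refine ⟨b, hb, b', hb', ?_⟩
  intro i hi
  rcases Nat.lt_or_ge k i.val with hlt | hge
  · -- old rows
    obtain ⟨c', h1', h2', h3'⟩ := hg i hlt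
    have hi₀i : i₀ < i := by
      have : i₀.val < i.val := by omega
      exact this
    have hjc : j ≠ c' := by
      rintro rfl
      exact hc (h3' i₀ (ne_of_lt hi₀i))
    have hrowc : h i₀ c' = 0 := h3' i₀ (ne_of_lt hi₀i)
    -- `h1` agrees with `h` on the column `c'` and on the row `i`
    have hc1 : ∀ x, h1 x c' = h x c' := by
      intro x
      rw [hh1v, hrowc]
      simp
    have hr1 : ∀ y, h1 i y = h i y := by
      intro y
      rw [hh1v, hbelow i hi₀i]
      simp
    refine ⟨c', ?_, ?_, ?_⟩
    · rw [hfinal, if_neg (ne_of_gt hi₀i), if_neg (not_lt.mpr (le_of_lt hi₀i)), hc1, h1']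
      simp
    · intro y hy
      rw [hfinal, if_neg (ne_of_gt hi₀i), if_neg (not_lt.mpr (le_of_lt hi₀i)), hr1, h2' y hy]
      simp
    · intro x hx
      rw [hfinal, hc1, h3' x hx, hrow, if_neg (Ne.symm hjc)]
      simp
  · -- the new row
    have hi' : i = i₀ := by
      apply Fin.ext
      omega
    subst hi'
    refine ⟨j, ?_, ?_, ?_⟩
    · rw [hfinal, if_pos rfl, if_neg (lt_irrefl _), hrow, if_pos rfl]
      simp [hc]
    · intro y hy
      rw [hfinal, if_pos rfl, if_neg (lt_irrefl _), hrow, if_neg hy]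
      simp
    · intro x hx
      rw [hfinal, if_neg hx, hrow, if_pos rfl]
      by_cases h2 : x < i
      · rw [if_pos h2]
        field_simp
        ring
      · rw [if_neg h2, hh1v, hbelow x (lt_of_le_of_ne (not_lt.mp h2) (Ne.symm hx))]
        simp

/-- Gaussian elimination. -/
theorem exists_Red (k : ℕ) (hk : k ≤ n) (g : GL (Fin n) F) :
    ∃ b ∈ Bor (n := n) F, ∃ b' ∈ Bor (n := n) F,
      Red (n - k) ((b * g * b' : GL (Fin n) F) : Matrix (Fin n) (Fin n) F) := by
  induction k with
  | zero =>
    refine ⟨1, one_mem _, 1, one_mem _, ?_⟩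
    intro i hi
    have := i.2
    simp at hi
    omega
  | succ k ih =>
    obtain ⟨b, hb, b', hb', hR⟩ := ih (by omega)
    have hm : n - (k + 1) + 1 = n - k := by omega
    obtain ⟨c, hc, c', hc', hR'⟩ := Red_step (k := n - (k + 1)) ⟨n - (k + 1), by omega⟩ rfl (b * g * b')
      (by rw [hm]; exact hR)
    refine ⟨c * b, mul_mem hc hb, b' * c', mul_mem hb' hc', ?_⟩
    have : c * b * g * (b' * c') = c * (b * g * b') * c' := by group
    rw [this]
    exact hR'

/-- The Bruhat decomposition of `GL_n`. -/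
theorem bruhat_GL (g : GL (Fin n) F) :
    ∃ b ∈ Bor (n := n) F, ∃ b' ∈ Bor (n := n) F, ∃ w : Equiv.Perm (Fin n), g = b * Pm F w * b' := by
  classical
  obtain ⟨b, hb, b', hb', hR⟩ := exists_Red n le_rfl g
  rw [Nat.sub_self] at hR
  set h := b * g * b' with hh
  have hex : ∀ i : Fin n, ∃ c : Fin n, (h : Matrix (Fin n) (Fin n) F) i c = 1 ∧
      (∀ j, j ≠ c → (h : Matrix (Fin n) (Fin n) F) i j = 0) ∧
      (∀ x, x ≠ i → (h : Matrix (Fin n) (Fin n) F) x c = 0) := fun i => hR i (Nat.zero_le _)
  choose c hc1 hc2 hc3 using hex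
  have hinj : Function.Injective c := by
    intro i i' hii
    by_contra hne
    have := hc3 i' i hne
    rw [← hii, hc1] at this
    exact one_ne_zero this
  let e : Equiv.Perm (Fin n) := Equiv.ofBijective c (Finite.injective_iff_bijective.mp hinj)
  have hecoe : ∀ i, e i = c i := fun i => rfl
  have hP : h = Pm F e⁻¹ := by
    apply Units.ext
    ext i j
    change (h : Matrix (Fin n) (Fin n) F) i j = pm F e⁻¹ i j
    simp only [pm]
    by_cases hij : j = c i
    · subst hij
      rw [hc1, if_pos]
      rw [← hecoe]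
      simp
    · rw [hc2 i j hij, if_neg]
      intro h'
      apply hij
      rw [h', ← hecoe]
      simp
  refine ⟨b⁻¹, inv_mem hb, b'⁻¹, inv_mem hb', e⁻¹, ?_⟩
  rw [← hP, hh]
  group

end Cfsg.Agent.Lib.Classical.Flags
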