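import Mathlib

/-!
A polynomial form of Cauchy's determinant identity:
`det (∏_{k ≠ j} (1 - x i * y k)) = det V(x) * det V(y)`.
-/

set_option autoImplicit false
set_option linter.unusedSectionVars false
set_option linter.unusedSimpArgs false
set_option linter.style.haveILetI false

open Matrix Polynomial

namespace Cfsg.Agent.Lib.Classical.Flags

variable {A : Type*} [CommRing A] {n : ℕ}

/-- The polynomial `∏_{k ∈ S} (1 - y k * X)`. -/
noncomputable def prodLin (y : Fin n → A) (S : Finset (Fin n)) : A[X] := ∏ k ∈ S, (1 - C (y k) * X)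

lemma natDegree_prodLin_le (y : Fin n → A) (S : Finset (Fin n)) : (prodLin y S).natDegree ≤ S.card := by
  unfold prodLin
  refine le_trans (natDegree_prod_le _ _) ?_
  calc _ ≤ ∑ k ∈ S, 1 := by
        apply Finset.sum_le_sum
        intro k _
        refine le_trans (natDegree_sub_le _ _) ?_
        simp only [natDegree_one]
        exact max_le (Nat.zero_le _) ((natDegree_C_mul_le _ _).trans natDegree_X_le)
    _ = S.card := by simp

lemma eval_prodLin (y : Fin n → A) (S : Finset (Fin n)) (t : A) :
    (prodLin y S).eval t = ∏ k ∈ S, (1 - t * y k) := by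
  unfold prodLin
  rw [eval_prod]
  apply Finset.prod_congr rfl
  intro k _
  rw [eval_sub, eval_one, eval_mul, eval_C, eval_X, mul_comm]

/-- Homogenisation. -/
lemma hom_sum (y : Fin n → A) (S : Finset (Fin n)) (t : A) :
    ∑ l ∈ Finset.range (S.card + 1), t ^ (S.card - l) * (prodLin y S).coeff l = ∏ k ∈ S, (t - y k) := by
  classical
  induction S using Finset.induction_on with
  | empty => simp [prodLin]
  | insert a S ha ih =>
    rw [Finset.card_insert_of_notMem ha, Finset.prod_insert ha, ← ih]
    have hp : prodLin y (insert a S) = prodLin y S - C (y a) * (X * prodLin y S) := by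
      unfold prodLin
      rw [Finset.prod_insert ha]
      ring
    rw [hp]
    have h0 : (prodLin y S).coeff (S.card + 1) = 0 :=
      coeff_eq_zero_of_natDegree_lt (Nat.lt_succ_of_le (natDegree_prodLin_le y S))
    have E1 : ∑ l ∈ Finset.range (S.card + 1 + 1), t ^ (S.card + 1 - l) * (prodLin y S).coeff l =
        t * ∑ l ∈ Finset.range (S.card + 1), t ^ (S.card - l) * (prodLin y S).coeff l := by
      rw [Finset.sum_range_succ, h0, mul_zero, add_zero, Finset.mul_sum]
      apply Finset.sum_congr rfl
      intro l hl
      have : l ≤ S.card := Nat.lt_succ_iff.mp (Finset.mem_range.mp hl)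
      rw [show S.card + 1 - l = (S.card - l) + 1 by omega, pow_succ]
      ring
    have E2 : ∑ l ∈ Finset.range (S.card + 1 + 1), t ^ (S.card + 1 - l) * (X * prodLin y S).coeff l =
        ∑ l ∈ Finset.range (S.card + 1), t ^ (S.card - l) * (prodLin y S).coeff l := by
      rw [Finset.sum_range_succ']
      simp only [coeff_X_mul, coeff_X_mul_zero, mul_zero, add_zero]
      apply Finset.sum_congr rfl
      intro l hl
      rw [show S.card + 1 - (l + 1) = S.card - l by omega]
    have E3 : ∀ l, t ^ (S.card + 1 - l) * (prodLin y S - C (y a) * (X * prodLin y S)).coeff l =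
        t ^ (S.card + 1 - l) * (prodLin y S).coeff l - y a * (t ^ (S.card + 1 - l) * (X * prodLin y S).coeff l) := by
      intro l
      rw [coeff_sub, coeff_C_mul]
      ring
    simp only [E3]
    rw [Finset.sum_sub_distrib, ← Finset.mul_sum, E1, E2]
    ring

/-- The coefficient matrix. -/
noncomputable def coefMat (y : Fin n → A) : Matrix (Fin n) (Fin n) A :=
  of fun l j => (prodLin y (Finset.univ.erase j)).coeff l.val

lemma card_erase (j : Fin n) : ((Finset.univ : Finset (Fin n)).erase j).card + 1 = n := by
  rw [Finset.card_erase_of_mem (Finset.mem_univ _), Finset.card_univ, Fintype.card_fin]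
  have := j.2
  omega

lemma eval_eq_sum (y : Fin n → A) (j : Fin n) (t : A) :
    ∏ k ∈ Finset.univ.erase j, (1 - t * y k) =
      ∑ l : Fin n, t ^ l.val * coefMat y l j := by
  rw [← eval_prodLin, eval_eq_sum_range' (n := n)]
  · rw [Finset.sum_range]
    apply Finset.sum_congr rfl
    intro l _
    rw [mul_comm]
    rfl
  · have h1 := natDegree_prodLin_le y (Finset.univ.erase j)
    have h2 := card_erase j
    omega

lemma proj_mul_coefMat (y : Fin n → A) (i j : Fin n) :
    ∑ l : Fin n, y i ^ (n - 1 - l.val) * coefMat y l j = ∏ k ∈ Finset.univ.erase j, (y i - y k) := by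
  have h := hom_sum y (Finset.univ.erase j) (y i)
  have h2 := card_erase j
  rw [← h, h2, show ((Finset.univ : Finset (Fin n)).erase j).card = n - 1 by omega]
  exact (Fin.sum_univ_eq_sum_range (fun l => y i ^ (n - 1 - l) * (prodLin y (Finset.univ.erase j)).coeff l) n)

lemma prod_ne_eq (f : Fin n → Fin n → A) :
    ∏ i, ∏ k ∈ Finset.univ.erase i, f i k = (∏ i, ∏ k ∈ Finset.Ioi i, f i k) * ∏ i, ∏ k ∈ Finset.Ioi i, f k i := by
  classical
  have h1 : ∀ i : Fin n, ∏ k ∈ Finset.univ.erase i, f i k =
      (∏ k ∈ Finset.Ioi i, f i k) * ∏ k ∈ Finset.Iio i, f i k := by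
    intro i
    rw [mul_comm, ← Finset.prod_union]
    · apply Finset.prod_congr _ (fun _ _ => rfl)
      ext k
      simp only [Finset.mem_erase, Finset.mem_univ, and_true, Finset.mem_union, Finset.mem_Iio, Finset.mem_Ioi]
      exact ⟨fun h => lt_or_gt_of_ne h, fun h => h.elim ne_of_lt ne_of_gt⟩
    · rw [Finset.disjoint_left]
      intro k h h'
      simp only [Finset.mem_Iio, Finset.mem_Ioi] at h h'
      exact absurd h (not_lt.mpr (le_of_lt h'))
  simp only [h1, Finset.prod_mul_distrib]
  congr 1
  apply Finset.prod_comm'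
  intro i k
  simp

/-- The main identity in a domain with distinct `y`. -/
theorem det_prod_erase [IsDomain A] (x y : Fin n → A) (hy : Function.Injective y) :
    (of fun i j => ∏ k ∈ Finset.univ.erase j, (1 - x i * y k) : Matrix (Fin n) (Fin n) A).det =
      (vandermonde x).det * (vandermonde y).det := by
  classical
  have h1 : (of fun i j => ∏ k ∈ Finset.univ.erase j, (1 - x i * y k) : Matrix (Fin n) (Fin n) A) =
      vandermonde x * coefMat y := by
    ext i j
    rw [of_apply, eval_eq_sum, Matrix.mul_apply]
    rfl
  rw [h1, det_mul]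
  congr 1
  -- the matrix `W`
  have hW : projVandermonde (fun _ => (1 : A)) y * coefMat y =
      diagonal (fun i => ∏ k ∈ Finset.univ.erase i, (y i - y k)) := by
    ext i j
    rw [Matrix.mul_apply]
    have : ∀ l, projVandermonde (fun _ => (1 : A)) y i l * coefMat y l j = y i ^ (n - 1 - l.val) * coefMat y l j := by
      intro l
      rw [projVandermonde_apply, one_pow, one_mul, Fin.val_rev, show n - (l.val + 1) = n - 1 - l.val by omega]
    simp only [this]
    rw [proj_mul_coefMat]
    by_cases hij : i = j
    · subst hij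
      simp
    · rw [diagonal_apply_ne _ hij]
      apply Finset.prod_eq_zero (Finset.mem_erase.mpr ⟨hij, Finset.mem_univ i⟩)
      simp
  have h2 := congrArg det hW
  rw [det_mul, det_diagonal, det_projVandermonde, prod_ne_eq] at h2
  rw [det_vandermonde]
  have hne : (∏ i : Fin n, ∏ j ∈ Finset.Ioi i, ((1 : A) * y i - 1 * y j)) ≠ 0 := by
    apply Finset.prod_ne_zero_iff.mpr
    intro i _
    apply Finset.prod_ne_zero_iff.mpr
    intro j hj
    simp only [one_mul]
    apply sub_ne_zero.mpr
    intro h
    have := hy h
    simp only [Finset.mem_Ioi] at hj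
    exact absurd this (ne_of_lt hj)
  simp only [one_mul] at h2 hne
  exact mul_left_cancel₀ hne h2

end Cfsg.Agent.Lib.Classical.Flags
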