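import Cfsg.Agent.Lib.Classical.Flags.Index

/-!
The index formula for parabolic subgroups and the degree formula.
-/

set_option autoImplicit false
set_option linter.unusedSectionVars false
set_option linter.unusedSimpArgs false
set_option linter.style.haveILetI false

open scoped MatrixGroups
open Matrix

namespace Cfsg.Agent.Lib.Classical.Flags

/-- The `q`-integer. -/
def Qn (q r : ℕ) : ℕ := ∑ l ∈ Finset.range r, q ^ l

/-- The `q`-factorial. -/
def QF (q r : ℕ) : ℕ := ∏ j ∈ Finset.range r, Qn q (j + 1)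

lemma pow_eq_Qn {q : ℕ} (hq : 1 ≤ q) (r : ℕ) : q ^ r = (q - 1) * Qn q r + 1 := by
  obtain ⟨p, rfl⟩ : ∃ p, q = p + 1 := ⟨q - 1, by omega⟩
  simp only [Nat.add_sub_cancel]
  induction r with
  | zero => simp [Qn]
  | succ r ih =>
    unfold Qn at ih ⊢
    rw [Finset.sum_range_succ, pow_succ]
    nlinarith [ih]

lemma pow_sub_pow_eq {q : ℕ} (hq : 1 ≤ q) {m i : ℕ} (h : i < m) :
    q ^ m - q ^ i = q ^ i * ((q - 1) * Qn q (m - i)) := by
  have h1 : q ^ m = q ^ i * q ^ (m - i) := by
    rw [← pow_add]
    congr 1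
    omega
  have h2 := pow_eq_Qn hq (m - i)
  rw [h1, h2, mul_add, mul_one, Nat.add_sub_cancel]

lemma prod_pow_range (q m : ℕ) : ∏ i ∈ Finset.range m, q ^ i = q ^ (m.choose 2) := by
  rw [Finset.prod_pow_eq_pow_sum, Finset.sum_range_id, Nat.choose_two_right]

lemma prod_gl {q : ℕ} (hq : 1 ≤ q) (m : ℕ) :
    ∏ i : Fin m, (q ^ m - q ^ i.val) = q ^ (m.choose 2) * (q - 1) ^ m * QF q m := by
  have h1 : ∀ i : Fin m, q ^ m - q ^ i.val = q ^ i.val * ((q - 1) * Qn q (m - i.val)) :=
    fun i => pow_sub_pow_eq hq i.2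
  simp only [h1]
  rw [Fin.prod_univ_eq_prod_range (fun i => q ^ i * ((q - 1) * Qn q (m - i))) m, Finset.prod_mul_distrib,
    Finset.prod_mul_distrib, prod_pow_range]
  simp only [Finset.prod_const, Finset.card_range]
  rw [mul_assoc]
  congr 2
  unfold QF
  rw [← Finset.prod_range_reflect (fun j => Qn q (j + 1)) m]
  apply Finset.prod_congr rfl
  intro i hi
  have := Finset.mem_range.mp hi
  congr 1
  omega

/-- Counting ordered pairs in a finite linear order. -/
lemma card_lt_pairs (X : Type*) [Fintype X] [LinearOrder X] :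
    Nat.card {p : X × X // p.1 < p.2} = (Fintype.card X).choose 2 := by
  classical
  rw [Nat.card_eq_fintype_card, Fintype.card_subtype]
  set m := Fintype.card X with hm
  set a := (Finset.univ.filter (fun p : X × X => p.1 < p.2)).card with ha
  have hswap : (Finset.univ.filter (fun p : X × X => p.2 < p.1)).card = a := by
    apply Finset.card_equiv (Equiv.prodComm X X)
    intro p
    simp
  have heq : (Finset.univ.filter (fun p : X × X => p.1 = p.2)).card = m := by
    rw [hm, ← Finset.card_univ]
    symm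
    apply Finset.card_bij (fun x _ => (x, x))
    · intro x _
      simp
    · intro x _ y _ h
      exact congrArg Prod.fst h
    · intro p hp
      simp only [Finset.mem_filter, Finset.mem_univ, true_and] at hp
      exact ⟨p.1, Finset.mem_univ _, Prod.ext rfl hp⟩
  have htot : a + (Finset.univ.filter (fun p : X × X => p.2 < p.1)).card +
      (Finset.univ.filter (fun p : X × X => p.1 = p.2)).card = m * m := by
    have : m * m = (Finset.univ : Finset (X × X)).card := by
      rw [Finset.card_univ, Fintype.card_prod]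
    rw [this, ha, Finset.card_filter, Finset.card_filter, Finset.card_filter, ← Finset.sum_add_distrib,
      ← Finset.sum_add_distrib, Finset.card_eq_sum_ones]
    apply Finset.sum_congr rfl
    intro p _
    rcases lt_trichotomy p.1 p.2 with h | h | h
    · simp [h, not_lt.mpr (le_of_lt h), ne_of_lt h]
    · simp [h]
    · simp [h, not_lt.mpr (le_of_lt h), ne_of_gt h]
  rw [hswap, heq] at htot
  rw [Nat.choose_two_right]
  have : m * (m - 1) = 2 * a := by
    cases hm0 : m with
    | zero =>
      rw [hm0] at htot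
      simp at htot ⊢
      omega
    | succ r =>
      rw [hm0] at htot
      simp only [Nat.add_sub_cancel]
      nlinarith [htot]
  rw [this]
  simp

/-- Pairs inside and across blocks. -/
lemma card_pairs {n : ℕ} (lb : Fin n → Fin n) (hmono : Monotone lb) :
    Nat.card {p : Fin n × Fin n // lb p.1 < lb p.2} +
      ∑ k : Fin n, (Fintype.card {a // lb a = k}).choose 2 = n.choose 2 := by
  classical
  have h0 := card_lt_pairs (Fin n)
  rw [Fintype.card_fin] at h0
  rw [← h0]
  have h1 : ∀ k : Fin n, (Fintype.card {a // lb a = k}).choose 2 =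
      (Finset.univ.filter (fun p : Fin n × Fin n => p.1 < p.2 ∧ lb p.1 = k ∧ lb p.2 = k)).card := by
    intro k
    rw [← card_lt_pairs {a // lb a = k}, Nat.card_eq_fintype_card, Fintype.card_subtype]
    apply Finset.card_bij (fun p _ => (p.1.1, p.2.1))
    · intro p hp
      simp only [Finset.mem_filter, Finset.mem_univ, true_and] at hp ⊢
      exact ⟨hp, p.1.2, p.2.2⟩
    · intro p _ p' _ h
      have h1 := congrArg Prod.fst h
      have h2 := congrArg Prod.snd h
      exact Prod.ext (Subtype.ext h1) (Subtype.ext h2)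
    · intro p hp
      simp only [Finset.mem_filter, Finset.mem_univ, true_and] at hp
      refine ⟨(⟨p.1, hp.2.1⟩, ⟨p.2, hp.2.2⟩), ?_, rfl⟩
      simp only [Finset.mem_filter, Finset.mem_univ, true_and]
      exact hp.1
  simp only [h1]
  rw [Nat.card_eq_fintype_card, Nat.card_eq_fintype_card, Fintype.card_subtype, Fintype.card_subtype]
  simp only [Finset.card_filter]
  rw [Finset.sum_comm, ← Finset.sum_add_distrib]
  apply Finset.sum_congr rfl
  rintro ⟨i, j⟩ _
  simp only
  by_cases hij : i < j
  · have hle := hmono (le_of_lt hij)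
    rcases lt_or_eq_of_le hle with h | h
    · have e : ∑ k : Fin n, (if i < j ∧ lb i = k ∧ lb j = k then 1 else 0) = 0 := by
        apply Finset.sum_eq_zero
        intro k _
        rw [if_neg]
        rintro ⟨_, h2, h3⟩
        exact absurd (h2.trans h3.symm) (ne_of_lt h)
      rw [if_pos h, if_pos hij, e]
    · rw [if_neg (not_lt.mpr (le_of_eq h.symm)), if_pos hij, zero_add, Finset.sum_eq_single (lb i)]
      · rw [if_pos ⟨hij, rfl, h.symm⟩]
      · intro k _ hk
        rw [if_neg]
        rintro ⟨_, h2, _⟩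
        exact hk h2.symm
      · simp
  · have h1 : ¬ lb i < lb j := by
      intro h
      exact hij (hmono.reflect_lt h)
    have e : ∑ k : Fin n, (if i < j ∧ lb i = k ∧ lb j = k then 1 else 0) = 0 := by
      apply Finset.sum_eq_zero
      intro k _
      rw [if_neg]
      rintro ⟨h2, _⟩
      exact hij h2
    rw [if_neg h1, if_neg hij, e]

/-- The index formula. -/
theorem index_parabolic {n : ℕ} {F : Type*} [Field F] [Fintype F] {α : Fin n → ℕ} (hα : ∑ i, α i = n) :
    (Cfsg.parabolicGL n F α).index * ∏ k, QF (Fintype.card F) (α k) = QF (Fintype.card F) n := by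
  classical
  set q := Fintype.card F with hq
  have hq1 : 1 ≤ q := Fintype.card_pos
  have hq2 : 2 ≤ q := Fintype.one_lt_card
  let lb : Fin n → Fin n := fun i => ⟨Cfsg.compLabel α i, compLabel_lt hα i⟩
  have hlb : ∀ i, (lb i).val = Cfsg.compLabel α i := fun _ => rfl
  have hmono : Monotone lb := fun a b h => compLabel_mono α h
  have hm : ∀ k, Fintype.card {a // lb a = k} = α k := by
    intro k
    rw [Fintype.card_subtype, ← card_compLabel hα k]
    congr 1
    ext i
    simp only [Finset.mem_filter, Finset.mem_univ, true_and]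
    exact ⟨fun h => by rw [← hlb, h], fun h => Fin.ext (by rw [hlb]; exact h)⟩
  have hP := card_Par (F := F) (Cfsg.compLabel α) lb hlb α hm
  have hG : Nat.card (GL (Fin n) F) = q ^ (n.choose 2) * (q - 1) ^ n * QF q n := by
    rw [Matrix.card_GL_field, prod_gl hq1]
  have hidx := (Cfsg.parabolicGL n F α).index_mul_card
  rw [hG, parabolicGL_eq, hP] at hidx
  simp only [prod_gl hq1, ← hq] at hidx
  have hcount := card_pairs lb hmono
  simp only [hm] at hcount
  rw [Finset.prod_mul_distrib, Finset.prod_mul_distrib, Finset.prod_pow_eq_pow_sum, Finset.prod_pow_eq_pow_sum, hα] at hidx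
  have hpos : 0 < q ^ (n.choose 2) * (q - 1) ^ n := by
    apply Nat.mul_pos
    · positivity
    · apply Nat.pow_pos
      omega
  apply Nat.eq_of_mul_eq_mul_left hpos
  rw [← hidx, ← hcount, pow_add]
  rw [parabolicGL_eq]
  ring

/-- The falling `q`-product. -/
def ee (q a j : ℕ) : ℕ := ∏ k ∈ Finset.range j, Qn q (a - k)

lemma ee_zero_of_lt {q a j : ℕ} (h : a < j) : ee q a j = 0 :=
  Finset.prod_eq_zero (Finset.mem_range.mpr h) (by simp [Qn])

lemma QF_eq (q a j : ℕ) (h : j ≤ a) : QF q a = QF q (a - j) * ee q a j := by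
  induction j with
  | zero => simp [ee]
  | succ j ih =>
    rw [ih (by omega)]
    have h1 : a - j = (a - (j + 1)) + 1 := by omega
    have h2 : QF q (a - j) = QF q (a - (j + 1)) * Qn q (a - j) := by
      conv_lhs => rw [h1]
      unfold QF
      rw [Finset.prod_range_succ, ← h1]
    rw [h2]
    unfold ee
    rw [Finset.prod_range_succ]
    ring

lemma Qn_add (q a b : ℕ) : Qn q (a + b) = Qn q a + q ^ a * Qn q b := by
  unfold Qn
  rw [Finset.sum_range_add, Finset.mul_sum]
  simp only [pow_add]

lemma ee_poly (q a j : ℕ) : ((ee q a j : ℕ) : ℂ) * (q : ℂ) ^ (j.choose 2) =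
    ∏ k ∈ Finset.range j, ((Qn q a : ℂ) - (Qn q k : ℂ)) := by
  induction j with
  | zero => simp [ee]
  | succ j ih =>
    rw [Finset.prod_range_succ, ← ih]
    by_cases h : j ≤ a
    · have h1 : Qn q a = Qn q j + q ^ j * Qn q (a - j) := by
        rw [← Qn_add]
        congr 1
        omega
      have h2 : (j + 1).choose 2 = j.choose 2 + j := by
        rw [Nat.choose_succ_succ' j 1, Nat.choose_one_right, add_comm]
      have h3 : ee q a (j + 1) = ee q a j * Qn q (a - j) := by
        unfold ee
        rw [Finset.prod_range_succ]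
      rw [h3, h2, h1, pow_add]
      push_cast
      ring
    · have h0 : ee q a j = 0 := ee_zero_of_lt (by omega)
      have h3 : ee q a (j + 1) = 0 := ee_zero_of_lt (by omega)
      rw [h0, h3]
      simp

lemma sum_choose_two (n : ℕ) : ∑ j ∈ Finset.range n, j.choose 2 = n * (n - 1) * (n - 2) / 6 := by
  have h : ∀ n : ℕ, 6 * ∑ j ∈ Finset.range n, j.choose 2 = n * (n - 1) * (n - 2) := by
    intro n
    induction n with
    | zero => simp
    | succ n ih =>
      rw [Finset.sum_range_succ, mul_add, ih]
      have h2 : 2 * n.choose 2 = n * (n - 1) := by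
        rw [Nat.choose_two_right]
        exact Nat.mul_div_cancel' (Nat.even_mul_pred_self n).two_dvd
      cases n with
      | zero => simp
      | succ m =>
        cases m with
        | zero => simp
        | succ r =>
          simp only [Nat.add_sub_cancel] at h2 ⊢
          have e1 : r + 1 + 1 - 2 = r := by omega
          rw [e1]
          have e2 : r + 1 + 1 + 1 - 1 = r + 1 + 1 := by omega
          have e3 : r + 1 + 1 + 1 - 2 = r + 1 := by omega
          rw [e3]
          nlinarith [h2]
  rw [← h n]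
  simp

/-- The matrix of falling `q`-products has a Vandermonde determinant. -/
theorem det_ee (q : ℕ) {n : ℕ} (l : Fin n → ℕ) :
    (of fun i j : Fin n => ((ee q (l i) j.val : ℕ) : ℂ)).det * (q : ℂ) ^ (n * (n - 1) * (n - 2) / 6) =
      ∏ i : Fin n, ∏ j ∈ Finset.Ioi i, ((Qn q (l j) : ℂ) - (Qn q (l i) : ℂ)) := by
  classical
  let p : Fin n → Polynomial ℂ := fun j =>
    ∏ k ∈ Finset.range j.val, (Polynomial.X - Polynomial.C ((Qn q k : ℕ) : ℂ))
  have hdeg : ∀ j : Fin n, (p j).natDegree = j.val := by
    intro j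
    have := Polynomial.natDegree_finsetProd_X_sub_C_eq_card (Finset.range j.val) (fun k => ((Qn q k : ℕ) : ℂ))
    simpa [p] using this
  have hmonic : ∀ j : Fin n, (p j).Monic := by
    intro j
    exact Polynomial.monic_prod_of_monic _ _ (fun k _ => Polynomial.monic_X_sub_C _)
  have h1 := Matrix.det_eval_matrixOfPolynomials_eq_det_vandermonde (fun i : Fin n => ((Qn q (l i) : ℕ) : ℂ)) p hdeg hmonic
  rw [Matrix.det_vandermonde] at h1
  rw [h1]
  have h2 : (of fun i j : Fin n => (p j).eval ((Qn q (l i) : ℕ) : ℂ)) =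
      of fun i j : Fin n => (q : ℂ) ^ (j.val.choose 2) * ((ee q (l i) j.val : ℕ) : ℂ) := by
    ext i j
    simp only [of_apply, p]
    rw [Polynomial.eval_prod, mul_comm, ee_poly]
    simp
  have h3 := Matrix.det_mul_row (fun j : Fin n => (q : ℂ) ^ (j.val.choose 2))
    (of fun i j : Fin n => ((ee q (l i) j.val : ℕ) : ℂ))
  simp only [of_apply] at h3
  rw [h2, h3, Finset.prod_pow_eq_pow_sum, mul_comm]
  congr 2
  rw [Fin.sum_univ_eq_sum_range (fun j => j.choose 2) n, sum_choose_two]

lemma fixed_one {G : Type*} [Group G] (H : Subgroup G) : Cfsg.fixedPointCharacter H 1 = (H.index : ℂ) := by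
  unfold Cfsg.fixedPointCharacter
  rw [MulAction.fixedBy_one_eq_univ]
  congr 1
  rw [Subgroup.index]
  exact Nat.card_congr (Equiv.Set.univ _)

/-- The degree formula in the form of a determinant. -/
theorem unipotent_one_mul {n : ℕ} {F : Type*} [Field F] [Fintype F] {ν : Fin n → ℕ} (hs : ∑ i, ν i = n) :
    Cfsg.unipotentCharacterGL n F ν 1 * ∏ i : Fin n, ((QF (Fintype.card F) (ν i + i.val) : ℕ) : ℂ) =
      ((QF (Fintype.card F) n : ℕ) : ℂ) *
        (of fun i j : Fin n => ((ee (Fintype.card F) (ν i + i.val) j.val : ℕ) : ℂ)).det := by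
  classical
  set q := Fintype.card F with hq
  rw [← det_transpose, det_apply', Finset.mul_sum]
  unfold Cfsg.unipotentCharacterGL
  rw [Finset.sum_mul]
  apply Finset.sum_congr rfl
  intro κ _
  by_cases c : ∀ i : Fin n, (κ i).val ≤ ν i + i.val
  · rw [if_pos c, fixed_one]
    have h1 := index_parabolic (F := F) (sum_shift hs c)
    have h2 : ∏ i : Fin n, QF q (ν i + i.val) =
        (∏ i : Fin n, QF q (ν i + i.val - (κ i).val)) * ∏ i : Fin n, ee q (ν i + i.val) (κ i).val := by
      rw [← Finset.prod_mul_distrib]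
      apply Finset.prod_congr rfl
      intro i _
      exact QF_eq q _ _ (c i)
    have h3 : ∏ i : Fin n, ((QF q (ν i + i.val) : ℕ) : ℂ) =
        ((∏ i : Fin n, QF q (ν i + i.val - (κ i).val) : ℕ) : ℂ) * ∏ i : Fin n, ((ee q (ν i + i.val) (κ i).val : ℕ) : ℂ) := by
      rw [← Nat.cast_prod, h2]
      push_cast
      rfl
    rw [h3, ← h1]
    simp only [transpose_apply, of_apply]
    push_cast
    ring
  · rw [if_neg c, zero_mul]
    push Not at c
    obtain ⟨i, hi⟩ := c
    have h0 : ∏ i : Fin n, (of fun i j : Fin n => ((ee q (ν i + i.val) j.val : ℕ) : ℂ))ᵀ (κ i) i = 0 := by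
      apply Finset.prod_eq_zero (Finset.mem_univ i)
      simp only [transpose_apply, of_apply]
      rw [ee_zero_of_lt hi]
      simp
    rw [h0, mul_zero, mul_zero]

/-- The degree formula. -/
theorem unipotent_degree {n : ℕ} {F : Type*} [Field F] [Fintype F] {ν : Fin n → ℕ} (hs : ∑ i, ν i = n) :
    Cfsg.unipotentCharacterGL n F ν 1 * ((Fintype.card F : ℕ) : ℂ) ^ (n * (n - 1) * (n - 2) / 6) *
        ∏ i : Fin n, ((QF (Fintype.card F) (ν i + i.val) : ℕ) : ℂ) =
      ((QF (Fintype.card F) n : ℕ) : ℂ) *
        ∏ i : Fin n, ∏ j ∈ Finset.Ioi i, ((Qn (Fintype.card F) (ν j + j.val) : ℂ) - (Qn (Fintype.card F) (ν i + i.val) : ℂ)) := by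
  have h1 := unipotent_one_mul (F := F) hs
  have h2 := det_ee (Fintype.card F) (fun i : Fin n => ν i + i.val)
  rw [← h2, mul_right_comm, h1, mul_assoc]

lemma Qn_strictMono {q : ℕ} (hq : 1 ≤ q) : StrictMono (Qn q) := by
  apply strictMono_nat_of_lt_succ
  intro r
  unfold Qn
  rw [Finset.sum_range_succ]
  have : 0 < q ^ r := by positivity
  omega

lemma QF_pos {q : ℕ} (hq : 1 ≤ q) (r : ℕ) : 0 < QF q r := by
  unfold QF
  apply Finset.prod_pos
  intro j _
  unfold Qn
  rw [Finset.sum_range_succ']
  simp

/-- The value at `1` is a positive rational number. -/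
theorem unipotent_one_pos {n : ℕ} {F : Type*} [Field F] [Fintype F] {ν : Fin n → ℕ} (hm : Monotone ν) (hs : ∑ i, ν i = n) :
    ∃ a b : ℕ, 0 < a ∧ 0 < b ∧ Cfsg.unipotentCharacterGL n F ν 1 * (a : ℂ) = (b : ℂ) := by
  classical
  set q := Fintype.card F with hq
  have hq1 : 1 ≤ q := Fintype.card_pos
  refine ⟨q ^ (n * (n - 1) * (n - 2) / 6) * ∏ i : Fin n, QF q (ν i + i.val),
    QF q n * ∏ i : Fin n, ∏ j ∈ Finset.Ioi i, (Qn q (ν j + j.val) - Qn q (ν i + i.val)), ?_, ?_, ?_⟩
  · apply Nat.mul_pos (by positivity)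
    exact Finset.prod_pos (fun i _ => QF_pos hq1 _)
  · apply Nat.mul_pos (QF_pos hq1 _)
    apply Finset.prod_pos
    intro i _
    apply Finset.prod_pos
    intro j hj
    have hlt := strictMono_shift hm (Finset.mem_Ioi.mp hj)
    simp only at hlt
    have := Qn_strictMono hq1 hlt
    omega
  · have h := unipotent_degree (F := F) hs
    rw [← hq] at h
    push_cast
    rw [← mul_assoc, h]
    congr 1
    apply Finset.prod_congr rfl
    intro i _
    apply Finset.prod_congr rfl
    intro j hj
    have hlt := strictMono_shift hm (Finset.mem_Ioi.mp hj)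
    simp only at hlt
    have := (Qn_strictMono hq1 hlt).le
    rw [Nat.cast_sub this]

end Cfsg.Agent.Lib.Classical.Flags
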