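import Cfsg.Agent.Lib.Classical.Flags.Unipotent

/-!
The order of a parabolic subgroup and the index formula.
-/

set_option autoImplicit false
set_option linter.unusedSectionVars false
set_option linter.unusedSimpArgs false
set_option linter.style.haveILetI false

open scoped MatrixGroups
open Matrix

namespace Cfsg.Agent.Lib.Classical.Flags

variable {n : ℕ} {F : Type*} [Field F]

/-- Block triangular matrices with non-zero determinant. -/
def BTS (F : Type*) [Field F] (lb : Fin n → Fin n) : Type _ :=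
  {M : Matrix (Fin n) (Fin n) F // M.BlockTriangular lb ∧ M.det ≠ 0}

/-- Splitting a block triangular matrix into its diagonal blocks and its upper part. -/
noncomputable def btsEquiv (lb : Fin n → Fin n) : BTS F lb ≃
    (((k : Fin n) → {D : Matrix {a // lb a = k} {a // lb a = k} F // D.det ≠ 0}) ×
      ({p : Fin n × Fin n // lb p.1 < lb p.2} → F)) where
  toFun M := (fun k => ⟨M.1.toSquareBlock lb k, by
      have h := M.2.2
      rw [M.2.1.det_fintype] at h
      exact (Finset.prod_ne_zero_iff.mp h) k (Finset.mem_univ k)⟩, fun u => M.1 u.1.1 u.1.2)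
  invFun x := ⟨fun i j => if h : lb j = lb i then (x.1 (lb i)).1 ⟨i, rfl⟩ ⟨j, h⟩ else
      if h2 : lb i < lb j then x.2 ⟨(i, j), h2⟩ else 0, by
        intro i j hij
        change (if h : lb j = lb i then (x.1 (lb i)).1 ⟨i, rfl⟩ ⟨j, h⟩ else
          if h2 : lb i < lb j then x.2 ⟨(i, j), h2⟩ else 0) = 0
        rw [dif_neg (ne_of_lt hij), dif_neg (not_lt.mpr (le_of_lt hij))], by
        set M : Matrix (Fin n) (Fin n) F := fun i j => if h : lb j = lb i then (x.1 (lb i)).1 ⟨i, rfl⟩ ⟨j, h⟩ else
          if h2 : lb i < lb j then x.2 ⟨(i, j), h2⟩ else 0 with hM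
        have hB : M.BlockTriangular lb := by
          intro i j hij
          change (if h : lb j = lb i then (x.1 (lb i)).1 ⟨i, rfl⟩ ⟨j, h⟩ else
            if h2 : lb i < lb j then x.2 ⟨(i, j), h2⟩ else 0) = 0
          rw [dif_neg (ne_of_lt hij), dif_neg (not_lt.mpr (le_of_lt hij))]
        rw [hB.det_fintype]
        apply Finset.prod_ne_zero_iff.mpr
        intro k _
        have : M.toSquareBlock lb k = (x.1 k).1 := by
          ext ⟨i, hi⟩ ⟨j, hj⟩
          subst hi
          change (if h : lb j = lb i then (x.1 (lb i)).1 ⟨i, rfl⟩ ⟨j, h⟩ else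
            if h2 : lb i < lb j then x.2 ⟨(i, j), h2⟩ else 0) = _
          rw [dif_pos hj]
        rw [this]
        exact (x.1 k).2⟩
  left_inv M := by
    apply Subtype.ext
    ext i j
    change (if h : lb j = lb i then (M.1.toSquareBlock lb (lb i)) ⟨i, rfl⟩ ⟨j, h⟩ else
      if h2 : lb i < lb j then M.1 i j else 0) = M.1 i j
    by_cases h : lb j = lb i
    · rw [dif_pos h]
      rfl
    · rw [dif_neg h]
      by_cases h2 : lb i < lb j
      · rw [dif_pos h2]
      · rw [dif_neg h2]
        exact (M.2.1 (lt_of_le_of_ne (not_lt.mp h2) h)).symm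
  right_inv x := by
    apply Prod.ext
    · funext k
      apply Subtype.ext
      ext ⟨i, hi⟩ ⟨j, hj⟩
      subst hi
      change (if h : lb j = lb i then (x.1 (lb i)).1 ⟨i, rfl⟩ ⟨j, h⟩ else
        if h2 : lb i < lb j then x.2 ⟨(i, j), h2⟩ else 0) = _
      rw [dif_pos hj]
    · funext u
      obtain ⟨⟨i, j⟩, h⟩ := u
      change (if h : lb j = lb i then (x.1 (lb i)).1 ⟨i, rfl⟩ ⟨j, h⟩ else
        if h2 : lb i < lb j then x.2 ⟨(i, j), h2⟩ else 0) = _
      rw [dif_neg (ne_of_gt h), dif_pos h]

/-- Invertible block triangular matrices are the elements of the parabolic. -/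
noncomputable def parEquiv (ℓ : Fin n → ℕ) (lb : Fin n → Fin n) (hlb : ∀ i, (lb i).val = ℓ i) :
    Par F ℓ ≃ BTS F lb where
  toFun g := ⟨g.1.1, fun i j hij => g.2 (by
      have : (lb j).val < (lb i).val := hij
      rwa [hlb, hlb] at this), by
      have : IsUnit (g.1.1 : Matrix (Fin n) (Fin n) F) := g.1.isUnit
      exact ((Matrix.isUnit_iff_isUnit_det _).mp this).ne_zero⟩
  invFun M := ⟨Matrix.GeneralLinearGroup.mkOfDetNeZero M.1 M.2.2, fun i j hij => M.2.1 (by
      change (lb j).val < (lb i).val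
      rwa [hlb, hlb])⟩
  left_inv g := by
    apply Subtype.ext
    apply Units.ext
    rfl
  right_inv M := by
    apply Subtype.ext
    rfl

lemma card_det_ne [Fintype F] (X : Type) [Fintype X] [DecidableEq X] {m : ℕ} (hX : Fintype.card X = m) :
    Nat.card {D : Matrix X X F // D.det ≠ 0} = ∏ i : Fin m, (Fintype.card F ^ m - Fintype.card F ^ i.val) := by
  classical
  rw [← Matrix.card_GL_field]
  apply Nat.card_congr
  have e : X ≃ Fin m := Fintype.equivFinOfCardEq hX
  refine ⟨fun D => Matrix.GeneralLinearGroup.mkOfDetNeZero (Matrix.reindex e e D.1) (by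
      rw [Matrix.det_reindex_self]
      exact D.2),
    fun g => ⟨Matrix.reindex e.symm e.symm g.1, ?_⟩, ?_, ?_⟩
  · rw [Matrix.det_reindex_self]
    have : IsUnit (g.1 : Matrix (Fin m) (Fin m) F) := g.isUnit
    exact ((Matrix.isUnit_iff_isUnit_det _).mp this).ne_zero
  · intro D
    apply Subtype.ext
    ext i j
    simp [Matrix.GeneralLinearGroup.mkOfDetNeZero]
  · intro g
    apply Units.ext
    ext i j
    simp [Matrix.GeneralLinearGroup.mkOfDetNeZero]

/-- The order of a parabolic subgroup. -/
theorem card_Par [Fintype F] (ℓ : Fin n → ℕ) (lb : Fin n → Fin n) (hlb : ∀ i, (lb i).val = ℓ i)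
    (m : Fin n → ℕ) (hm : ∀ k, Fintype.card {a // lb a = k} = m k) :
    Nat.card (Par F ℓ) = (∏ k, ∏ i : Fin (m k), (Fintype.card F ^ m k - Fintype.card F ^ i.val)) *
      Fintype.card F ^ Nat.card {p : Fin n × Fin n // lb p.1 < lb p.2} := by
  classical
  rw [Nat.card_congr ((parEquiv ℓ lb hlb).trans (btsEquiv lb)), Nat.card_prod, Nat.card_pi]
  congr 1
  · apply Finset.prod_congr rfl
    intro k _
    exact card_det_ne _ (hm k)
  · rw [Nat.card_fun, Nat.card_eq_fintype_card (α := F)]

end Cfsg.Agent.Lib.Classical.Flags
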