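import Cfsg.Agent.Lib.Classical.Flags.Table

/-!
Inner products of flag permutation characters.
-/

set_option autoImplicit false
set_option linter.unusedSectionVars false
set_option linter.unusedSimpArgs false
set_option linter.style.haveILetI false

open scoped MatrixGroups
open Matrix

namespace Cfsg.Agent.Lib.Classical.Flags

theorem inner_eq_orbits {G : Type*} [Group G] [Finite G] [Fintype G] (H K : Subgroup G) :
    (Nat.card G : ℂ)⁻¹ * ∑ g : G, Cfsg.fixedPointCharacter H g * Cfsg.fixedPointCharacter K g =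
      (Nat.card (MulAction.orbitRel.Quotient G ((G ⧸ H) × (G ⧸ K))) : ℂ) := by
  have hc : (Nat.card G : ℂ) ≠ 0 := by
    exact_mod_cast Nat.card_pos.ne'
  unfold Cfsg.fixedPointCharacter
  rw [sum_fixed_mul_fixed]
  field_simp

variable {n : ℕ} {F : Type*} [Field F] [Finite F]

theorem inner_parabolic [Fintype (GL (Fin n) F)] {α β : Fin n → ℕ} (hα : ∑ i, α i = n) (hβ : ∑ i, β i = n) :
    (Nat.card (GL (Fin n) F) : ℂ)⁻¹ * ∑ g : GL (Fin n) F,
      Cfsg.fixedPointCharacter (Cfsg.parabolicGL n F α) g * Cfsg.fixedPointCharacter (Cfsg.parabolicGL n F β) g =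
      (NT α β : ℂ) := by
  have : Finite (GL (Fin n) F) := inferInstance
  rw [inner_eq_orbits]
  congr 1
  exact (card_orbits_GL (compLabel_mono α) (compLabel_mono β)).trans (card_range_T hα hβ)

theorem inner_young {α β : Fin n → ℕ} (hα : ∑ i, α i = n) (hβ : ∑ i, β i = n) :
    (Nat.card (Equiv.Perm (Fin n)) : ℂ)⁻¹ * ∑ g : Equiv.Perm (Fin n),
      Cfsg.fixedPointCharacter (Cfsg.youngSubgroup α) g * Cfsg.fixedPointCharacter (Cfsg.youngSubgroup β) g =
      (NT α β : ℂ) := by
  rw [inner_eq_orbits]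
  congr 1
  exact (card_orbits_Sym _ _).trans (card_range_T hα hβ)

end Cfsg.Agent.Lib.Classical.Flags
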