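import Cfsg.Agent.Lib.Classical.Flags.Basic

/-!
Orbits on pairs of cosets, rank invariants, and contingency tables.
-/

set_option autoImplicit false
set_option linter.unusedSectionVars false
set_option linter.unusedSimpArgs false
set_option linter.style.haveILetI false

open scoped MatrixGroups
open Matrix

namespace Cfsg.Agent.Lib.Classical.Flags

section General

lemma card_range_eq {G X Y : Type*} (f : G → X) (f' : G → Y) (h : ∀ a b, f a = f b ↔ f' a = f' b) :
    Nat.card (Set.range f) = Nat.card (Set.range f') := by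
  have hk : Setoid.ker f = Setoid.ker f' := by
    ext a b
    exact h a b
  rw [Nat.card_congr (Setoid.quotientKerEquivRange f).symm,
    Nat.card_congr (Setoid.quotientKerEquivRange f').symm, hk]

variable {G : Type*} [Group G] (H K : Subgroup G)

/-- The map from `G` to the orbits on pairs of cosets. -/
def psi (g : G) : MulAction.orbitRel.Quotient G ((G ⧸ H) × (G ⧸ K)) :=
  Quotient.mk _ (((1 : G) : G ⧸ H), ((g : G) : G ⧸ K))

lemma psi_surjective : Function.Surjective (psi H K) := by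
  intro q
  induction q using Quotient.inductionOn with
  | h p =>
    obtain ⟨a, b⟩ := p
    induction a using QuotientGroup.induction_on with
    | H x =>
      induction b using QuotientGroup.induction_on with
      | H y =>
        refine ⟨x⁻¹ * y, ?_⟩
        apply Quotient.sound
        refine ⟨x⁻¹, ?_⟩
        change (x⁻¹ • ((x : G) : G ⧸ H), x⁻¹ • ((y : G) : G ⧸ K)) = _
        rw [MulAction.Quotient.smul_coe, MulAction.Quotient.smul_coe]
        simp

lemma psi_eq_iff (g g' : G) : psi H K g = psi H K g' ↔ ∃ h ∈ H, ∃ k ∈ K, g' = h * g * k := by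
  constructor
  · intro h
    have h' := Quotient.exact h
    obtain ⟨x, hx⟩ := h'
    have h1 : x • (((1 : G) : G ⧸ H), ((g' : G) : G ⧸ K)) = (((1 : G) : G ⧸ H), ((g : G) : G ⧸ K)) := hx
    rw [Prod.smul_mk, Prod.mk.injEq, MulAction.Quotient.smul_coe, MulAction.Quotient.smul_coe] at h1
    obtain ⟨h2, h3⟩ := h1
    rw [QuotientGroup.eq] at h2 h3
    simp only [smul_eq_mul, mul_one] at h2 h3
    refine ⟨x⁻¹, by simpa using h2, (g'⁻¹ * x⁻¹ * g)⁻¹, ?_, ?_⟩
    · have : (x * g')⁻¹ * g ∈ K := h3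
      have e : (g'⁻¹ * x⁻¹ * g)⁻¹ = ((x * g')⁻¹ * g)⁻¹ := by group
      rw [e]
      exact inv_mem this
    · group
  · rintro ⟨h, hh, k, hk, rfl⟩
    apply Quotient.sound
    refine ⟨h⁻¹, ?_⟩
    change (h⁻¹ • ((1 : G) : G ⧸ H), h⁻¹ • ((h * g * k : G) : G ⧸ K)) = _
    rw [MulAction.Quotient.smul_coe, MulAction.Quotient.smul_coe, Prod.mk.injEq]
    constructor
    · rw [QuotientGroup.eq]
      simpa using hh
    · rw [QuotientGroup.eq]
      simp only [smul_eq_mul]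
      have e : (h⁻¹ * (h * g * k))⁻¹ * g = k⁻¹ := by group
      rw [e]
      exact inv_mem hk

/-- The orbits on pairs of cosets are counted by any complete invariant of the double cosets. -/
theorem card_orbits_eq {X : Type*} (Φ : G → X)
    (hΦ : ∀ g g', Φ g = Φ g' ↔ ∃ h ∈ H, ∃ k ∈ K, g' = h * g * k) :
    Nat.card (MulAction.orbitRel.Quotient G ((G ⧸ H) × (G ⧸ K))) = Nat.card (Set.range Φ) := by
  have h1 := card_range_eq (psi H K) Φ (fun a b => by rw [hΦ, psi_eq_iff])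
  rw [← h1, (psi_surjective H K).range_eq]
  exact (Nat.card_congr (Equiv.Set.univ _)).symm

/-- Burnside's lemma for pairs of cosets. -/
theorem sum_fixed_mul_fixed [Finite G] [Fintype G] :
    (∑ g : G, (Nat.card (MulAction.fixedBy (G ⧸ H) g) : ℂ) * (Nat.card (MulAction.fixedBy (G ⧸ K) g) : ℂ)) =
      (Nat.card (MulAction.orbitRel.Quotient G ((G ⧸ H) × (G ⧸ K))) : ℂ) * (Nat.card G : ℂ) := by
  classical
  have := Fintype.ofFinite (G ⧸ H)
  have := Fintype.ofFinite (G ⧸ K)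
  have := Fintype.ofFinite (MulAction.orbitRel.Quotient G ((G ⧸ H) × (G ⧸ K)))
  have h := MulAction.sum_card_fixedBy_eq_card_orbits_mul_card_group G ((G ⧸ H) × (G ⧸ K))
  have h1 : ∀ g : G, Fintype.card (MulAction.fixedBy ((G ⧸ H) × (G ⧸ K)) g) =
      Nat.card (MulAction.fixedBy (G ⧸ H) g) * Nat.card (MulAction.fixedBy (G ⧸ K) g) := by
    intro g
    rw [← Nat.card_eq_fintype_card, ← Nat.card_prod]
    apply Nat.card_congr
    refine ⟨fun x => (⟨x.1.1, ?_⟩, ⟨x.1.2, ?_⟩), fun x => ⟨(x.1.1, x.2.1), ?_⟩, ?_, ?_⟩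
    · exact congrArg Prod.fst x.2
    · exact congrArg Prod.snd x.2
    · exact Prod.ext x.1.2 x.2.2
    · intro x
      rfl
    · intro x
      rfl
  simp only [h1] at h
  rw [← Nat.card_eq_fintype_card, ← Nat.card_eq_fintype_card] at h
  have h2 := congrArg (Nat.cast : ℕ → ℂ) h
  push_cast at h2
  exact h2

end General

variable {n : ℕ} {F : Type*} [Field F]

/-- Coordinate subspaces. -/
def cs (F : Type*) [Field F] (S : Set (Fin n)) : Submodule F (Fin n → F) where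
  carrier := {v | ∀ i, i ∉ S → v i = 0}
  add_mem' := fun {a b} ha hb i hi => by
    simp [ha i hi, hb i hi]
  zero_mem' := fun _ _ => rfl
  smul_mem' := fun c {a} ha i hi => by
    simp [ha i hi]

lemma mem_cs {S : Set (Fin n)} {v : Fin n → F} : v ∈ cs F S ↔ ∀ i, i ∉ S → v i = 0 := Iff.rfl

lemma cs_inf (S T : Set (Fin n)) : cs F S ⊓ cs F T = cs F (S ∩ T) := by
  ext v
  simp only [Submodule.mem_inf, mem_cs, Set.mem_inter_iff, not_and_or]
  constructor
  · rintro ⟨h1, h2⟩ i (hi | hi)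
    · exact h1 i hi
    · exact h2 i hi
  · intro h
    exact ⟨fun i hi => h i (Or.inl hi), fun i hi => h i (Or.inr hi)⟩

lemma finrank_cs (S : Finset (Fin n)) : Module.finrank F (cs F (S : Set (Fin n))) = S.card := by
  classical
  let e : cs F (S : Set (Fin n)) ≃ₗ[F] (S → F) :=
    { toFun := fun v i => v.1 i.1
      map_add' := fun _ _ => rfl
      map_smul' := fun _ _ => rfl
      invFun := fun u => ⟨fun i => if h : i ∈ S then u ⟨i, h⟩ else 0, by
        intro i hi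
        have : i ∉ S := by simpa using hi
        simp [this]⟩
      left_inv := by
        intro v
        ext i
        by_cases h : i ∈ S
        · simp [h]
        · have : i ∉ (S : Set (Fin n)) := by simpa using h
          simp [h, v.2 i this]
      right_inv := by
        intro u
        ext i
        simp }
  rw [e.finrank_eq, Module.finrank_fintype_fun_eq_card]
  simp

/-- The linear map of an invertible matrix. -/
noncomputable def lin (g : GL (Fin n) F) : (Fin n → F) →ₗ[F] (Fin n → F) :=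
  (g : Matrix (Fin n) (Fin n) F).mulVecLin

lemma lin_apply (g : GL (Fin n) F) (v : Fin n → F) (i : Fin n) :
    lin g v i = ∑ j, (g : Matrix (Fin n) (Fin n) F) i j * v j := rfl

lemma lin_mul (g g' : GL (Fin n) F) : lin (g * g') = lin g ∘ₗ lin g' := by
  ext v i
  simp [lin, Matrix.mulVec_mulVec]

lemma lin_one : lin (1 : GL (Fin n) F) = LinearMap.id := by
  ext v i
  simp [lin]

lemma lin_injective (g : GL (Fin n) F) : Function.Injective (lin g) := by
  intro a b hab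
  have h : (lin g⁻¹ ∘ₗ lin g) a = (lin g⁻¹ ∘ₗ lin g) b := by
    simp [hab]
  rwa [← lin_mul, inv_mul_cancel, lin_one] at h

lemma map_lin_le {ℓ : Fin n → ℕ} {p : GL (Fin n) F} (hp : p ∈ Par F ℓ) (a : ℕ) :
    (cs F {i | ℓ i < a}).map (lin p) ≤ cs F {i | ℓ i < a} := by
  rintro _ ⟨v, hv, rfl⟩ i hi
  have hi' : a ≤ ℓ i := not_lt.mp hi
  change lin p v i = 0
  rw [lin_apply]
  apply Finset.sum_eq_zero
  intro j _
  by_cases hj : ℓ j < a
  · rw [hp (lt_of_lt_of_le hj hi'), zero_mul]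
  · rw [hv j hj, mul_zero]

lemma map_lin_eq {ℓ : Fin n → ℕ} {p : GL (Fin n) F} (hp : p ∈ Par F ℓ) (a : ℕ) :
    (cs F {i | ℓ i < a}).map (lin p) = cs F {i | ℓ i < a} := by
  apply le_antisymm (map_lin_le hp a)
  intro v hv
  refine ⟨lin p⁻¹ v, map_lin_le (inv_mem hp) a ⟨v, hv, rfl⟩, ?_⟩
  change (lin p ∘ₗ lin p⁻¹) v = v
  rw [← lin_mul, mul_inv_cancel, lin_one]
  rfl

/-- The rank invariant of a matrix relative to two labellings. -/
noncomputable def D (F : Type*) [Field F] (ℓ ℓ' : Fin n → ℕ) (g : GL (Fin n) F) (a b : ℕ) : ℕ :=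
  Module.finrank F ↥((cs F {k | ℓ' k < b}).map (lin g) ⊓ cs F {i | ℓ i < a})

lemma D_mul {ℓ ℓ' : Fin n → ℕ} (g : GL (Fin n) F) {p p' : GL (Fin n) F}
    (hp : p ∈ Par F ℓ) (hp' : p' ∈ Par F ℓ') (a b : ℕ) :
    D F ℓ ℓ' (p * g * p') a b = D F ℓ ℓ' g a b := by
  unfold D
  have h1 : (cs F {k | ℓ' k < b}).map (lin (p * g * p')) =
      ((cs F {k | ℓ' k < b}).map (lin g)).map (lin p) := by
    rw [lin_mul, lin_mul, Submodule.map_comp, Submodule.map_comp, map_lin_eq hp']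
  rw [h1]
  conv_lhs => rw [← map_lin_eq hp a]
  rw [← Submodule.map_inf _ (lin_injective p)]
  exact (Submodule.equivMapOfInjective (lin p) (lin_injective p) _).symm.finrank_eq

lemma lin_Pm (w : Equiv.Perm (Fin n)) (v : Fin n → F) (i : Fin n) : lin (Pm F w) v i = v (w⁻¹ i) := by
  rw [lin_apply, Finset.sum_eq_single (w⁻¹ i)]
  · simp [Pm_val, pm]
  · intro b _ hb
    have : ¬ i = w b := by
      rintro rfl
      apply hb
      simp
    simp [Pm_val, pm, this]
  · simp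

lemma map_lin_Pm (w : Equiv.Perm (Fin n)) (S : Set (Fin n)) :
    (cs F S).map (lin (Pm F w)) = cs F (w '' S) := by
  ext v
  constructor
  · rintro ⟨u, hu, rfl⟩ i hi
    change lin (Pm F w) u i = 0
    rw [lin_Pm]
    apply hu
    intro h
    apply hi
    exact ⟨w⁻¹ i, h, by simp⟩
  · intro hv
    refine ⟨lin (Pm F w⁻¹) v, ?_, ?_⟩
    · intro i hi
      change lin (Pm F w⁻¹) v i = 0
      rw [lin_Pm]
      apply hv
      rintro ⟨j, hj, hj2⟩
      apply hi
      have : j = i := by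
        have := hj2
        simp only [inv_inv] at this
        exact w.injective this
      rwa [← this]
    · ext i
      change lin (Pm F w) (lin (Pm F w⁻¹) v) i = v i
      rw [lin_Pm, lin_Pm]
      simp

/-- The counting function. -/
def C (ℓ ℓ' : Fin n → ℕ) (w : Equiv.Perm (Fin n)) (a b : ℕ) : ℕ :=
  (Finset.univ.filter (fun k : Fin n => ℓ' k < b ∧ ℓ (w k) < a)).card

lemma D_Pm (ℓ ℓ' : Fin n → ℕ) (w : Equiv.Perm (Fin n)) (a b : ℕ) :
    D F ℓ ℓ' (Pm F w) a b = C ℓ ℓ' w a b := by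
  classical
  unfold D C
  rw [map_lin_Pm, cs_inf]
  have e : w '' {k | ℓ' k < b} ∩ {i | ℓ i < a} =
      ((Finset.univ.filter (fun k : Fin n => ℓ' k < b ∧ ℓ (w k) < a)).image w : Finset (Fin n)) := by
    ext i
    simp only [Set.mem_inter_iff, Set.mem_image, Set.mem_ofPred_eq, Finset.coe_image, Finset.coe_filter,
      Finset.mem_univ, true_and]
    constructor
    · rintro ⟨⟨k, hk, rfl⟩, h2⟩
      exact ⟨k, ⟨hk, h2⟩, rfl⟩
    · rintro ⟨k, ⟨hk, h2⟩, rfl⟩
      exact ⟨⟨k, hk, rfl⟩, h2⟩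
  rw [e, finrank_cs, Finset.card_image_of_injective _ w.injective]

/-- The table of a permutation. -/
def T (ℓ ℓ' : Fin n → ℕ) (w : Equiv.Perm (Fin n)) (i j : ℕ) : ℕ :=
  (Finset.univ.filter (fun k : Fin n => ℓ' k = j ∧ ℓ (w k) = i)).card

/-- The table of a permutation from the counting function. -/
lemma T_add (ℓ ℓ' : Fin n → ℕ) (w : Equiv.Perm (Fin n)) (i j : ℕ) :
    T ℓ ℓ' w i j + C ℓ ℓ' w i (j + 1) + C ℓ ℓ' w (i + 1) j =
      C ℓ ℓ' w (i + 1) (j + 1) + C ℓ ℓ' w i j := by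
  unfold T C
  simp only [Finset.card_filter]
  rw [← Finset.sum_add_distrib, ← Finset.sum_add_distrib, ← Finset.sum_add_distrib]
  apply Finset.sum_congr rfl
  intro k _
  by_cases h1 : ℓ' k < j <;> by_cases h2 : ℓ' k = j <;> by_cases h3 : ℓ (w k) < i <;>
    by_cases h4 : ℓ (w k) = i <;> simp only [h1, h2, h3, h4, true_and, and_true, false_and, and_false, if_true, if_false] <;>
    first
      | (split_ifs <;> omega)
      | omega

lemma T_eq_of_C {ℓ ℓ' : Fin n → ℕ} {w w' : Equiv.Perm (Fin n)} (h : C ℓ ℓ' w = C ℓ ℓ' w') :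
    T ℓ ℓ' w = T ℓ ℓ' w' := by
  funext i j
  have h1 := T_add ℓ ℓ' w i j
  have h2 := T_add ℓ ℓ' w' i j
  rw [h] at h1
  omega

lemma C_eq_of_T {ℓ ℓ' : Fin n → ℕ} {w w' : Equiv.Perm (Fin n)} (h : T ℓ ℓ' w = T ℓ ℓ' w') :
    C ℓ ℓ' w = C ℓ ℓ' w' := by
  funext a b
  induction a generalizing b with
  | zero => simp [C]
  | succ a iha =>
    induction b with
    | zero => simp [C]
    | succ b ihb =>
      have h1 := T_add ℓ ℓ' w a b
      have h2 := T_add ℓ ℓ' w' a b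
      rw [h, iha, ihb] at h1
      have h3 := iha b
      omega

lemma C_eq_iff_T {ℓ ℓ' : Fin n → ℕ} {w w' : Equiv.Perm (Fin n)} :
    C ℓ ℓ' w = C ℓ ℓ' w' ↔ T ℓ ℓ' w = T ℓ ℓ' w' := ⟨T_eq_of_C, C_eq_of_T⟩

/-- Two maps with fibres of the same size differ by a bijection. -/
lemma exists_equiv_of_fibers {α α' β : Type*} [Finite α] [Finite α'] (f : α → β) (f' : α' → β)
    (h : ∀ x, Nat.card {k // f k = x} = Nat.card {k // f' k = x}) :
    ∃ e : α ≃ α', ∀ k, f' (e k) = f k := by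
  classical
  have : ∀ x, Nonempty ({k // f k = x} ≃ {k // f' k = x}) := fun x => Finite.card_eq.mp (h x)
  let E : ∀ x, {k // f k = x} ≃ {k // f' k = x} := fun x => (this x).some
  let e : α ≃ α' := (Equiv.sigmaFiberEquiv f).symm.trans
    ((Equiv.sigmaCongrRight E).trans (Equiv.sigmaFiberEquiv f'))
  refine ⟨e, fun k => ?_⟩
  change f' ((E (f k)) ⟨k, rfl⟩).1 = f k
  exact ((E (f k)) ⟨k, rfl⟩).2

/-- Equal tables give the same double coset of Young subgroups. -/
lemma exists_Yng_of_T {ℓ ℓ' : Fin n → ℕ} {w w' : Equiv.Perm (Fin n)} (h : T ℓ ℓ' w = T ℓ ℓ' w') :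
    ∃ y ∈ Yng ℓ, ∃ y' ∈ Yng ℓ', w' = y * w * y' := by
  classical
  obtain ⟨τ, hτ⟩ := exists_equiv_of_fibers (fun k => (ℓ' k, ℓ (w k))) (fun k => (ℓ' k, ℓ (w' k))) (by
    rintro ⟨j, i⟩
    have := congrFun (congrFun h i) j
    unfold T at this
    rw [Nat.card_eq_fintype_card, Nat.card_eq_fintype_card, Fintype.card_subtype, Fintype.card_subtype]
    simpa [Prod.mk.injEq] using this)
  have h1 : ∀ k, ℓ' (τ k) = ℓ' k := fun k => congrArg Prod.fst (hτ k)
  have h2 : ∀ k, ℓ (w' (τ k)) = ℓ (w k) := fun k => congrArg Prod.snd (hτ k)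
  let τ' : Equiv.Perm (Fin n) := τ
  refine ⟨w' * τ' * w⁻¹, ?_, τ'⁻¹, ?_, ?_⟩
  · intro i
    change ℓ (w' (τ (w⁻¹ i))) = ℓ i
    rw [h2]
    simp
  · exact (Yng ℓ').inv_mem (show τ' ∈ Yng ℓ' from h1)
  · group

lemma T_mul {ℓ ℓ' : Fin n → ℕ} {y y' : Equiv.Perm (Fin n)} (hy : y ∈ Yng ℓ) (hy' : y' ∈ Yng ℓ')
    (w : Equiv.Perm (Fin n)) : T ℓ ℓ' (y * w * y') = T ℓ ℓ' w := by
  funext i j
  unfold T
  apply Finset.card_equiv y'
  intro k
  rw [Finset.mem_filter, Finset.mem_filter]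
  simp only [Finset.mem_univ, true_and, Equiv.Perm.mul_apply]
  rw [hy, hy']

/-- The invariant classifying double cosets in the symmetric group. -/
theorem T_eq_iff {ℓ ℓ' : Fin n → ℕ} (w w' : Equiv.Perm (Fin n)) :
    T ℓ ℓ' w = T ℓ ℓ' w' ↔ ∃ y ∈ Yng ℓ, ∃ y' ∈ Yng ℓ', w' = y * w * y' := by
  constructor
  · exact exists_Yng_of_T
  · rintro ⟨y, hy, y', hy', rfl⟩
    exact (T_mul hy hy' w).symm

/-- The invariant classifying double cosets in the general linear group. -/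
theorem D_eq_iff {ℓ ℓ' : Fin n → ℕ} (hℓ : Monotone ℓ) (hℓ' : Monotone ℓ') (g g' : GL (Fin n) F) :
    D F ℓ ℓ' g = D F ℓ ℓ' g' ↔ ∃ p ∈ Par F ℓ, ∃ p' ∈ Par F ℓ', g' = p * g * p' := by
  constructor
  · intro h
    obtain ⟨b, hb, c, hc, w, rfl⟩ := bruhat_GL g
    obtain ⟨b', hb', c', hc', w', rfl⟩ := bruhat_GL g'
    have hb1 := Bor_le (F := F) hℓ hb
    have hb2 := Bor_le (F := F) hℓ hb'
    have hc1 := Bor_le (F := F) hℓ' hc
    have hc2 := Bor_le (F := F) hℓ' hc'
    have h1 : ∀ a b', D F ℓ ℓ' (Pm F w) a b' = D F ℓ ℓ' (Pm F w') a b' := by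
      intro a e
      have := congrFun (congrFun h a) e
      rwa [D_mul _ hb1 hc1, D_mul _ hb2 hc2] at this
    have h2 : C ℓ ℓ' w = C ℓ ℓ' w' := by
      funext a e
      rw [← D_Pm (F := F), ← D_Pm (F := F), h1]
    obtain ⟨y, hy, y', hy', rfl⟩ := exists_Yng_of_T (T_eq_of_C h2)
    have h3 : Pm F (y * w * y') = Pm F y * Pm F w * Pm F y' := by
      rw [Pm_mul, Pm_mul]
    refine ⟨b' * Pm F y * b⁻¹, mul_mem (mul_mem hb2 (Pm_mem_Par hy)) (inv_mem hb1),
      c⁻¹ * Pm F y' * c', mul_mem (mul_mem (inv_mem hc1) (Pm_mem_Par hy')) hc2, ?_⟩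
    rw [h3]
    group
  · rintro ⟨p, hp, p', hp', rfl⟩
    funext a b
    rw [D_mul _ hp hp']

/-- The ranges of `D` and `C` coincide. -/
lemma range_D_eq {ℓ ℓ' : Fin n → ℕ} (hℓ : Monotone ℓ) (hℓ' : Monotone ℓ') :
    Set.range (D F ℓ ℓ') = Set.range (C ℓ ℓ') := by
  ext f
  constructor
  · rintro ⟨g, rfl⟩
    obtain ⟨b, hb, c, hc, w, rfl⟩ := bruhat_GL g
    refine ⟨w, ?_⟩
    funext a e
    rw [D_mul _ (Bor_le (F := F) hℓ hb) (Bor_le (F := F) hℓ' hc), D_Pm]
  · rintro ⟨w, rfl⟩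
    refine ⟨Pm F w, ?_⟩
    funext a e
    rw [D_Pm]

/-- The orbits on pairs of flags of `GL_n` and of `Sym(n)` are equinumerous: both are counted by
tables. -/
theorem card_orbits_GL {ℓ ℓ' : Fin n → ℕ} (hℓ : Monotone ℓ) (hℓ' : Monotone ℓ') :
    Nat.card (MulAction.orbitRel.Quotient (GL (Fin n) F) ((GL (Fin n) F ⧸ Par F ℓ) × (GL (Fin n) F ⧸ Par F ℓ'))) =
      Nat.card (Set.range (T ℓ ℓ')) := by
  rw [card_orbits_eq _ _ (D F ℓ ℓ') (D_eq_iff hℓ hℓ'), range_D_eq hℓ hℓ']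
  exact card_range_eq _ _ (fun a b => C_eq_iff_T)

theorem card_orbits_Sym (ℓ ℓ' : Fin n → ℕ) :
    Nat.card (MulAction.orbitRel.Quotient (Equiv.Perm (Fin n))
      ((Equiv.Perm (Fin n) ⧸ Yng ℓ) × (Equiv.Perm (Fin n) ⧸ Yng ℓ'))) =
      Nat.card (Set.range (T ℓ ℓ')) :=
  card_orbits_eq _ _ (T ℓ ℓ') T_eq_iff

end Cfsg.Agent.Lib.Classical.Flags
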