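import Cfsg.Agent.Lib.Classical.Flags.SLn
import Cfsg.Agent.Lib.Classical.SLBasic
import Cfsg.Agent.Lib.Char.DefectZero
import Cfsg.Agent.S2421

/-!
The Steinberg character on `PSL_n`.
-/

set_option autoImplicit false
set_option linter.unusedSectionVars false
set_option linter.unusedSimpArgs false
set_option linter.style.haveILetI false

open scoped MatrixGroups
open Matrix

namespace Cfsg.Agent.Lib.Classical.Flags

variable {n : ℕ} {F : Type*} [Field F]

/-- `∏_{i<j<n} (Q(j+1) - Q(i+1)) = q^T ∏_{j<n} QF j`. -/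
lemma prod_Qn_diff (q : ℕ) (n : ℕ) :
    (∏ j ∈ Finset.range n, ∏ i ∈ Finset.range j, ((Qn q (j + 1) : ℂ) - (Qn q (i + 1) : ℂ))) =
      (q : ℂ) ^ (∑ j ∈ Finset.range n, ∑ i ∈ Finset.range j, (i + 1)) *
        ∏ j ∈ Finset.range n, ((QF q j : ℕ) : ℂ) := by
  induction n with
  | zero => simp
  | succ n ih =>
    rw [Finset.prod_range_succ, ih, Finset.sum_range_succ, pow_add, Finset.prod_range_succ]
    have key : (∏ i ∈ Finset.range n, ((Qn q (n + 1) : ℂ) - (Qn q (i + 1) : ℂ))) =
        (q : ℂ) ^ (∑ i ∈ Finset.range n, (i + 1)) * ((QF q n : ℕ) : ℂ) := by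
      have h1 : ∀ i ∈ Finset.range n, ((Qn q (n + 1) : ℂ) - (Qn q (i + 1) : ℂ)) =
          (q : ℂ) ^ (i + 1) * (Qn q (n - 1 - i + 1) : ℂ) := by
        intro i hi
        have hi' := Finset.mem_range.mp hi
        have e : n + 1 = (i + 1) + (n - 1 - i + 1) := by omega
        unfold Qn
        rw [e, Finset.sum_range_add]
        push_cast
        have e2 : (∑ x ∈ Finset.range (n - 1 - i + 1), (q : ℂ) ^ (i + 1 + x)) =
            (q : ℂ) ^ (i + 1) * ∑ x ∈ Finset.range (n - 1 - i + 1), (q : ℂ) ^ x := by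
          rw [Finset.mul_sum]
          apply Finset.sum_congr rfl
          intro x _
          rw [pow_add]
        rw [e2]
        ring
      rw [Finset.prod_congr rfl h1, Finset.prod_mul_distrib, Finset.prod_pow_eq_pow_sum]
      congr 1
      unfold QF
      rw [← Finset.prod_range_reflect]
      push_cast
      apply Finset.prod_congr rfl
      intro i hi
      have hi' := Finset.mem_range.mp hi
      have : n - 1 - (n - 1 - i) + 1 = i + 1 := by omega
      rw [Nat.sub_sub] 
      have e3 : n - (1 + (n - 1 - i)) + 1 = i + 1 := by omega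
      rw [e3]
    rw [key]
    ring


lemma sum_id_choose (n : ℕ) : ∑ i ∈ Finset.range n, (i + 1) = (n + 1).choose 2 := by
  induction n with
  | zero => simp
  | succ n ih =>
    have e : (n + 1 + 1).choose 2 = (n + 1) + (n + 1).choose 2 := by
      have := Nat.choose_succ_succ' (n + 1) 1
      rw [Nat.choose_one_right] at this
      exact this
    rw [Finset.sum_range_succ, ih, e]
    omega

lemma sum_sum_choose (n : ℕ) : ∑ j ∈ Finset.range n, ∑ i ∈ Finset.range j, (i + 1) = (n + 1).choose 3 := by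
  induction n with
  | zero => simp [Nat.choose]
  | succ n ih =>
    have e : (n + 1 + 1).choose 3 = (n + 1).choose 2 + (n + 1).choose 3 := Nat.choose_succ_succ' (n + 1) 2
    rw [Finset.sum_range_succ, ih, sum_id_choose, e]
    omega

lemma choose_three_eq (n : ℕ) : n * (n - 1) * (n - 2) / 6 = n.choose 3 := by
  have h := Nat.descFactorial_eq_factorial_mul_choose n 3
  have h2 : n.descFactorial 3 = n * (n - 1) * (n - 2) := by
    simp [Nat.descFactorial]
    ring
  rw [h2] at h
  rw [h]
  simp [Nat.factorial]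

lemma prod_fin_Ioi {M : Type*} [CommMonoid M] (g : ℕ → ℕ → M) (n : ℕ) :
    (∏ i : Fin n, ∏ j ∈ Finset.Ioi i, g i.val j.val) =
      ∏ j ∈ Finset.range n, ∏ i ∈ Finset.range j, g i j := by
  induction n with
  | zero => simp
  | succ n ih =>
    rw [Finset.prod_range_succ, ← ih, Fin.prod_univ_castSucc]
    have h1 : ∀ i : Fin n, (∏ j ∈ Finset.Ioi (Fin.castSucc i), g (Fin.castSucc i).val j.val) =
        (∏ j ∈ Finset.Ioi i, g i.val j.val) * g i.val n := by
      intro i
      have e : Finset.Ioi (Fin.castSucc i) = insert (Fin.last n) ((Finset.Ioi i).map Fin.castSuccEmb) := by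
        ext x
        simp only [Finset.mem_Ioi, Finset.mem_insert, Finset.mem_map]
        constructor
        · intro hx
          by_cases hl : x = Fin.last n
          · exact Or.inl hl
          · right
            obtain ⟨y, rfl⟩ := Fin.exists_castSucc_eq.mpr hl
            exact ⟨y, by simpa using hx, rfl⟩
        · rintro (rfl | ⟨y, hy, rfl⟩)
          · exact Fin.castSucc_lt_last i
          · simpa using hy
      rw [e, Finset.prod_insert, Finset.prod_map, mul_comm]
      · simp
      · simp only [Finset.mem_map, not_exists, not_and]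
        intro y _ h
        exact absurd h (Fin.castSucc_lt_last y).ne
    rw [Finset.prod_congr rfl (fun i _ => h1 i), Finset.prod_mul_distrib]
    have h2 : (Finset.Ioi (Fin.last n)) = ∅ := by
      ext x
      simp only [Finset.mem_Ioi, Finset.notMem_empty, iff_false, not_lt]
      exact Fin.le_last x
    rw [h2, Finset.prod_empty, mul_one, Fin.prod_univ_eq_prod_range (fun i => g i n) n]

/-- The degree of the Steinberg character. -/
theorem St_one [Fintype F] (n : ℕ) :
    Cfsg.unipotentCharacterGL n F (fun _ => 1) 1 = ((Fintype.card F : ℕ) : ℂ) ^ n.choose 2 := by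
  classical
  have hs : ∑ i : Fin n, (fun _ : Fin n => 1) i = n := by simp
  have h := unipotent_degree (F := F) hs
  set q := Fintype.card F with hq
  have hq1 : 1 ≤ q := Fintype.card_pos
  have hq0 : (q : ℂ) ≠ 0 := by exact_mod_cast (by omega : q ≠ 0)
  have hprod : (∏ i : Fin n, ∏ j ∈ Finset.Ioi i, ((Qn q (1 + j.val) : ℂ) - (Qn q (1 + i.val) : ℂ))) =
      ∏ j ∈ Finset.range n, ∏ i ∈ Finset.range j, ((Qn q (j + 1) : ℂ) - (Qn q (i + 1) : ℂ)) := by
    have := prod_fin_Ioi (fun i j => ((Qn q (1 + j) : ℂ) - (Qn q (1 + i) : ℂ))) n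
    rw [this]
    simp only [add_comm]
  rw [hprod, prod_Qn_diff, sum_sum_choose, choose_three_eq] at h
  have hL : (∏ i : Fin n, ((QF q (1 + i.val) : ℕ) : ℂ)) = ((QF q n : ℕ) : ℂ) * ∏ j ∈ Finset.range n, ((QF q j : ℕ) : ℂ) := by
    rw [Fin.prod_univ_eq_prod_range (fun i => ((QF q (1 + i) : ℕ) : ℂ)) n]
    have e1 := Finset.prod_range_succ (fun j => ((QF q j : ℕ) : ℂ)) n
    have e2 := Finset.prod_range_succ' (fun j => ((QF q j : ℕ) : ℂ)) n
    have e3 : QF q 0 = 1 := by simp [QF]
    rw [e1, e3] at e2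
    simp only [Nat.cast_one, mul_one] at e2
    simp only [add_comm 1]
    rw [← e2]
    ring
  rw [hL] at h
  have hQ : ∀ r, ((QF q r : ℕ) : ℂ) ≠ 0 := fun r => by
    exact_mod_cast (QF_pos hq1 r).ne'
  have hX : (∏ j ∈ Finset.range n, ((QF q j : ℕ) : ℂ)) ≠ 0 := Finset.prod_ne_zero_iff.mpr (fun j _ => hQ j)
  have hc : (n + 1).choose 3 = n.choose 3 + n.choose 2 := by
    have e : (n + 1).choose 3 = n.choose 2 + n.choose 3 := Nat.choose_succ_succ' n 2
    omega
  rw [hc, pow_add] at h
  have hne : (q : ℂ) ^ n.choose 3 * ((QF q n : ℕ) : ℂ) * ∏ j ∈ Finset.range n, ((QF q j : ℕ) : ℂ) ≠ 0 :=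
    mul_ne_zero (mul_ne_zero (pow_ne_zero _ hq0) (hQ n)) hX
  apply mul_right_cancel₀ hne
  linear_combination h

/-- The Steinberg character restricted to `SL_n`. -/
theorem St_SL_irr [Fintype F] (n : ℕ) [NeZero n] :
    Cfsg.IsIrrCharacter (Matrix.SpecialLinearGroup (Fin n) F)
      (fun s => Cfsg.unipotentCharacterGL n F (fun _ => 1) (incSL n F s)) := by
  classical
  have hG := Cfsg.Agent.S2421.result (F := F) (n := n) (fun _ => 1) monotone_const (by simp)
  have := Fintype.ofFinite (GL (Fin n) F)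
  have := Fintype.ofFinite (Matrix.SpecialLinearGroup (Fin n) F)
  have hgen : Cfsg.IsGeneralizedCharacter (Matrix.SpecialLinearGroup (Fin n) F)
      (fun s => Cfsg.unipotentCharacterGL n F (fun _ => 1) (incSL n F s)) :=
    Cfsg.Agent.Lib.Char.GenLattice.isGenChar_comp (incSL n F) (Cfsg.Agent.Lib.Char.GenLattice.isGenChar_of_isIrr hG)
  have hreal : ∀ g, (starRingEnd ℂ) (Cfsg.unipotentCharacterGL n F (fun _ => 1) g) = Cfsg.unipotentCharacterGL n F (fun _ => 1) g := by
    intro g
    unfold Cfsg.unipotentCharacterGL Cfsg.fixedPointCharacter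
    rw [map_sum]
    apply Finset.sum_congr rfl
    intro κ _
    by_cases c : ∀ i : Fin n, (κ i).val ≤ 1 + i.val
    · simp [if_pos c]
    · simp [if_neg c]
  have hnorm : Cfsg.classInner (fun s => Cfsg.unipotentCharacterGL n F (fun _ => 1) (incSL n F s))
      (fun s => Cfsg.unipotentCharacterGL n F (fun _ => 1) (incSL n F s)) = 1 := by
    unfold Cfsg.classInner
    simp only [hreal]
    rw [inner_unipotent_SL, inner_unipotent monotone_const (by simp) monotone_const (by simp), if_pos rfl]
  rcases Cfsg.Agent.Lib.Char.GenLattice.norm_one hgen hnorm with h | h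
  · exact h
  · exfalso
    obtain ⟨m, ρ, -, hρ⟩ := h
    have h1 : (-(fun s : Matrix.SpecialLinearGroup (Fin n) F => Cfsg.unipotentCharacterGL n F (fun _ => 1) (incSL n F s))) 1 = (m : ℂ) := by
      rw [← hρ, Representation.char_one]
      simp
    rw [Pi.neg_apply, map_one, St_one] at h1
    have hq : 1 ≤ Fintype.card F := Fintype.card_pos
    have h3 : ((Fintype.card F ^ n.choose 2 + m : ℕ) : ℂ) = 0 := by
      push_cast
      linear_combination -h1
    have h4 : Fintype.card F ^ n.choose 2 + m = 0 := by exact_mod_cast h3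
    have : 0 < Fintype.card F ^ n.choose 2 := by positivity
    omega

/-- Scalars in `SL_n` lie in the kernel. -/
theorem St_center [Fintype F] (n : ℕ) (z : Matrix.SpecialLinearGroup (Fin n) F)
    (hz : z ∈ Subgroup.center (Matrix.SpecialLinearGroup (Fin n) F)) :
    Cfsg.unipotentCharacterGL n F (fun _ => 1) (incSL n F z) = Cfsg.unipotentCharacterGL n F (fun _ => 1) 1 := by
  classical
  obtain ⟨r, -, hr⟩ := Matrix.SpecialLinearGroup.mem_center_iff.mp hz
  have hval : ((incSL n F z : GL (Fin n) F) : Matrix (Fin n) (Fin n) F) = Matrix.scalar (Fin n) r := by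
    rw [incSL_val]
    exact hr.symm
  have hcomm : ∀ g : GL (Fin n) F, g⁻¹ * incSL n F z * g = incSL n F z := by
    intro g
    apply Units.ext
    have e : ((g⁻¹ * incSL n F z * g : GL (Fin n) F) : Matrix (Fin n) (Fin n) F) =
       ((g⁻¹ : GL (Fin n) F) : Matrix (Fin n) (Fin n) F) * ((incSL n F z : GL (Fin n) F) : Matrix (Fin n) (Fin n) F) * (g : Matrix (Fin n) (Fin n) F) := rfl
    rw [e, hval, Matrix.scalar_apply, ← Matrix.smul_one_eq_diagonal, Matrix.mul_smul, mul_one, Matrix.smul_mul,
      ← Units.val_mul, inv_mul_cancel, Units.val_one]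
  have hmem : ∀ ℓ : Fin n → ℕ, incSL n F z ∈ Par F ℓ := by
    intro ℓ
    rw [mem_Par, hval, Matrix.scalar_apply]
    intro i j hij
    rw [Matrix.diagonal_apply_ne]
    intro e
    subst e
    exact lt_irrefl _ hij
  unfold Cfsg.unipotentCharacterGL
  apply Finset.sum_congr rfl
  intro κ _
  by_cases c : ∀ i : Fin n, (κ i).val ≤ 1 + i.val
  · rw [if_pos c, if_pos c]
    congr 1
    unfold Cfsg.fixedPointCharacter
    congr 1
    apply Nat.card_congr
    apply Equiv.subtypeEquivRight
    intro x
    have hall : ∀ (H : Subgroup (GL (Fin n) F)) (hH : incSL n F z ∈ H) (x : GL (Fin n) F ⧸ H), incSL n F z • x = x := by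
      intro H hH x
      induction x using QuotientGroup.induction_on with
      | H g =>
        rw [MulAction.Quotient.smul_coe, QuotientGroup.eq]
        have e1 : (incSL n F z • g)⁻¹ * g = (g⁻¹ * incSL n F z * g)⁻¹ := by
          simp only [smul_eq_mul]
          group
        rw [e1, hcomm]
        exact inv_mem hH
    simp only [MulAction.mem_fixedBy, one_smul, iff_true]
    apply hall
    rw [parabolicGL_eq]
    exact hmem _
  · rw [if_neg c, if_neg c]

/-- `|GL_n(q)| = q^(n choose 2) * m` with `m` prime to `q`. -/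
lemma card_GL_eq [Fintype F] (n : ℕ) (p : ℕ) (hp : p.Prime) (hpq : p ∣ Fintype.card F) :
    ∃ m, ¬ p ∣ m ∧ Nat.card (GL (Fin n) F) = (Fintype.card F) ^ n.choose 2 * m := by
  classical
  rw [Matrix.card_GL_field]
  set q := Fintype.card F with hq
  have hq1 : 1 ≤ q := Fintype.card_pos
  refine ⟨∏ i : Fin n, (q ^ (n - i.val) - 1), ?_, ?_⟩
  · rw [hp.prime.dvd_finsetProd_iff]
    rintro ⟨i, -, hi⟩
    have hpos : 0 < n - i.val := by have := i.2; omega
    have h1 : p ∣ q ^ (n - i.val) := dvd_pow hpq hpos.ne'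
    have h2 : 1 ≤ q ^ (n - i.val) := Nat.one_le_pow _ _ (by omega)
    have h3 : p ∣ 1 := by
      have := (Nat.dvd_sub h1 hi)
      rwa [Nat.sub_sub_self h2] at this
    exact hp.one_lt.ne' (Nat.dvd_one.mp h3)
  · have h1 : ∀ i : Fin n, q ^ n - q ^ i.val = q ^ i.val * (q ^ (n - i.val) - 1) := by
      intro i
      have hle : i.val ≤ n := i.2.le
      rw [Nat.mul_sub, mul_one, ← pow_add, Nat.add_sub_cancel' hle]
    simp only [h1]
    rw [Finset.prod_mul_distrib, Finset.prod_pow_eq_pow_sum]
    congr 2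
    rw [Fin.sum_univ_eq_sum_range (fun i => i) n, Nat.choose_two_right, ← Finset.sum_range_id_mul_two]
    simp

end Cfsg.Agent.Lib.Classical.Flags
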