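import Cfsg.Agent.Lib.Classical.Flags.Series
import Cfsg.Agent.Lib.Classical.Flags.Inner

/-!
Orthonormality of the alternating sums of flag characters.
-/

set_option autoImplicit false
set_option linter.unusedSectionVars false
set_option linter.unusedSimpArgs false
set_option linter.style.haveILetI false

open scoped MatrixGroups
open Matrix

namespace Cfsg.Agent.Lib.Classical.Flags

variable {n : ℕ} {F : Type*} [Field F] [Finite F]

lemma strictMono_shift {ν : Fin n → ℕ} (h : Monotone ν) : StrictMono (fun i : Fin n => ν i + i.val) := by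
  intro a b hab
  have h1 := h (le_of_lt hab)
  have h2 : a.val < b.val := hab
  simp only
  omega

lemma sum_shift {ν : Fin n → ℕ} (hs : ∑ i, ν i = n) {κ : Equiv.Perm (Fin n)} (hk : ∀ i, (κ i).val ≤ ν i + i.val) :
    ∑ i, (ν i + i.val - (κ i).val) = n := by
  have h1 : ∑ i, (ν i + i.val - (κ i).val) + ∑ i, (κ i).val = ∑ i, (ν i + i.val) := by
    rw [← Finset.sum_add_distrib]
    apply Finset.sum_congr rfl
    intro i _
    exact Nat.sub_add_cancel (hk i)
  have h2 : ∑ i, (κ i).val = ∑ i : Fin n, i.val := Equiv.sum_comp κ (fun i : Fin n => i.val)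
  rw [Finset.sum_add_distrib, hs, h2] at h1
  omega

/-- The inner product of two alternating sums. -/
theorem inner_unipotent [Fintype (GL (Fin n) F)] {ν ν' : Fin n → ℕ} (hν : Monotone ν) (hs : ∑ i, ν i = n)
    (hν' : Monotone ν') (hs' : ∑ i, ν' i = n) :
    (Nat.card (GL (Fin n) F) : ℂ)⁻¹ * ∑ g : GL (Fin n) F,
      Cfsg.unipotentCharacterGL n F ν g * Cfsg.unipotentCharacterGL n F ν' g = if ν = ν' then 1 else 0 := by
  classical
  have hc : (Nat.card (GL (Fin n) F) : ℂ) ≠ 0 := by
    exact_mod_cast Nat.card_pos.ne'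
  have key := sum_sign_tables (strictMono_shift hν) (strictMono_shift hν')
  have hinj : (fun i : Fin n => ν i + i.val) = (fun i : Fin n => ν' i + i.val) ↔ ν = ν' := by
    constructor
    · intro h
      funext i
      have : ν i + i.val = ν' i + i.val := congrFun h i
      omega
    · rintro rfl
      rfl
  simp only [hinj] at key
  have key2 := congrArg (Int.cast : ℤ → ℂ) key
  push_cast at key2
  -- expand the product of the two sums
  unfold Cfsg.unipotentCharacterGL
  simp only [Finset.sum_mul_sum]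
  rw [Finset.sum_comm, Finset.mul_sum]
  have h1 : ∀ κ : Equiv.Perm (Fin n), (Nat.card (GL (Fin n) F) : ℂ)⁻¹ * ∑ g : GL (Fin n) F, ∑ κ' : Equiv.Perm (Fin n),
      (if ∀ i : Fin n, (κ i).val ≤ ν i + i.val then
        ((Equiv.Perm.sign κ : ℤ) : ℂ) * Cfsg.fixedPointCharacter (Cfsg.parabolicGL n F fun i => ν i + i.val - (κ i).val) g else 0) *
      (if ∀ i : Fin n, (κ' i).val ≤ ν' i + i.val then
        ((Equiv.Perm.sign κ' : ℤ) : ℂ) * Cfsg.fixedPointCharacter (Cfsg.parabolicGL n F fun i => ν' i + i.val - (κ' i).val) g else 0) =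
      ∑ κ' : Equiv.Perm (Fin n), (((Equiv.Perm.sign κ : ℤ) : ℂ) * ((Equiv.Perm.sign κ' : ℤ) : ℂ)) *
        (if (∀ i : Fin n, (κ i).val ≤ ν i + i.val) ∧ (∀ i : Fin n, (κ' i).val ≤ ν' i + i.val) then
          ((NS Finset.univ (fun i => ν i + i.val - (κ i).val) (fun i => ν' i + i.val - (κ' i).val) : ℕ) : ℂ) else 0) := by
    intro κ
    rw [Finset.sum_comm, Finset.mul_sum]
    apply Finset.sum_congr rfl
    intro κ' _
    by_cases c1 : ∀ i : Fin n, (κ i).val ≤ ν i + i.val
    · by_cases c2 : ∀ i : Fin n, (κ' i).val ≤ ν' i + i.val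
      · simp only [if_pos c1, if_pos c2, if_pos (And.intro c1 c2)]
        have := inner_parabolic (F := F) (sum_shift hs c1) (sum_shift hs' c2)
        rw [NT_eq_NS] at this
        rw [← this, mul_left_comm]
        congr 1
        have e : ∀ g : GL (Fin n) F, ((Equiv.Perm.sign κ : ℤ) : ℂ) * Cfsg.fixedPointCharacter (Cfsg.parabolicGL n F fun i => ν i + i.val - (κ i).val) g *
            (((Equiv.Perm.sign κ' : ℤ) : ℂ) * Cfsg.fixedPointCharacter (Cfsg.parabolicGL n F fun i => ν' i + i.val - (κ' i).val) g) =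
            (((Equiv.Perm.sign κ : ℤ) : ℂ) * ((Equiv.Perm.sign κ' : ℤ) : ℂ)) *
            (Cfsg.fixedPointCharacter (Cfsg.parabolicGL n F fun i => ν i + i.val - (κ i).val) g *
              Cfsg.fixedPointCharacter (Cfsg.parabolicGL n F fun i => ν' i + i.val - (κ' i).val) g) := by
          intro g
          ring
        simp only [e]
        rw [← Finset.mul_sum]
      · simp only [if_neg c2, mul_zero, Finset.sum_const_zero, if_neg (fun h : _ ∧ _ => c2 h.2)]
    · simp only [if_neg c1, zero_mul, Finset.sum_const_zero, mul_zero, if_neg (fun h : _ ∧ _ => c1 h.1)]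
  simp only [h1]
  exact key2

end Cfsg.Agent.Lib.Classical.Flags
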