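import Cfsg.Agent.Lib.Classical.Flags.Degree
import Cfsg.Agent.Lib.Classical.Flags.Unipotent
import Cfsg.Agent.Lib.Char.GenLattice
import Cfsg.Agent.Lib.Char.Linear
import Cfsg.Agent.Lib.Char.Basic

/-!
Restriction of the alternating sums of flag characters from `GL_n` to `SL_n`: the stabiliser in `GL_n` of a
pair of flags has surjective determinant, so `SL_n` and `GL_n` have the same orbits on pairs of flags and
the inner products agree.  In particular the restriction to `SL_n`, and the descent to `PSL_n`, stay irreducible.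
-/

set_option autoImplicit false
set_option linter.unusedSectionVars false
set_option linter.unusedSimpArgs false
set_option linter.style.haveILetI false

open scoped MatrixGroups
open Matrix

namespace Cfsg.Agent.Lib.Classical.Flags

section Abstract

variable {G S : Type*} [Group G] [Group S]

/-- Comparison of the inner products of two permutation characters under a surjective-on-stabilisers hom. -/
theorem inner_comp [Finite G] [Finite S] [Fintype G] [Fintype S] (f : S →* G) (H K : Subgroup G)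
    (h : ∀ a b x : G, ∃ s : S, ∃ t : G, x = f s * t ∧ a⁻¹ * t * a ∈ H ∧ b⁻¹ * t * b ∈ K) :
    (Nat.card S : ℂ)⁻¹ * ∑ s : S, Cfsg.fixedPointCharacter H (f s) * Cfsg.fixedPointCharacter K (f s) =
      (Nat.card G : ℂ)⁻¹ * ∑ g : G, Cfsg.fixedPointCharacter H g * Cfsg.fixedPointCharacter K g := by
  classical
  rw [inner_eq_orbits]
  letI : MulAction S ((G ⧸ H) × (G ⧸ K)) := MulAction.compHom _ f
  have hsmul : ∀ (s : S) (x : (G ⧸ H) × (G ⧸ K)), s • x = f s • x := fun _ _ => rfl
  have := Fintype.ofFinite (G ⧸ H)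
  have := Fintype.ofFinite (G ⧸ K)
  have := Fintype.ofFinite (MulAction.orbitRel.Quotient S ((G ⧸ H) × (G ⧸ K)))
  have hB := MulAction.sum_card_fixedBy_eq_card_orbits_mul_card_group S ((G ⧸ H) × (G ⧸ K))
  have h1 : ∀ s : S, Fintype.card (MulAction.fixedBy ((G ⧸ H) × (G ⧸ K)) s) =
      Nat.card (MulAction.fixedBy (G ⧸ H) (f s)) * Nat.card (MulAction.fixedBy (G ⧸ K) (f s)) := by
    intro s
    rw [← Nat.card_eq_fintype_card, ← Nat.card_prod]
    apply Nat.card_congr
    refine ⟨fun x => (⟨x.1.1, ?_⟩, ⟨x.1.2, ?_⟩), fun x => ⟨(x.1.1, x.2.1), ?_⟩, ?_, ?_⟩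
    · exact congrArg Prod.fst x.2
    · exact congrArg Prod.snd x.2
    · exact Prod.ext x.1.2 x.2.2
    · intro x
      rfl
    · intro x
      rfl
  simp only [h1] at hB
  rw [← Nat.card_eq_fintype_card, ← Nat.card_eq_fintype_card] at hB
  have h2 := congrArg (Nat.cast : ℕ → ℂ) hB
  push_cast at h2
  have hc : (Nat.card S : ℂ) ≠ 0 := by
    exact_mod_cast Nat.card_pos.ne'
  unfold Cfsg.fixedPointCharacter
  rw [h2]
  have e : Nat.card (MulAction.orbitRel.Quotient S ((G ⧸ H) × (G ⧸ K))) =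
      Nat.card (MulAction.orbitRel.Quotient G ((G ⧸ H) × (G ⧸ K))) := by
    apply Nat.card_congr
    apply Quotient.congrRight
    intro x y
    constructor
    · rintro ⟨s, hs⟩
      exact ⟨f s, hs⟩
    · rintro ⟨g, hg⟩
      -- move to stabiliser
      obtain ⟨xa, xb⟩ := y
      induction xa using QuotientGroup.induction_on with
      | H a =>
        induction xb using QuotientGroup.induction_on with
        | H b =>
          obtain ⟨s, t, hst, ht1, ht2⟩ := h a b g
          refine ⟨s, ?_⟩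
          have hg' : g • (((a : G) : G ⧸ H), ((b : G) : G ⧸ K)) = x := hg
          have htfix : t • (((a : G) : G ⧸ H), ((b : G) : G ⧸ K)) = (((a : G) : G ⧸ H), ((b : G) : G ⧸ K)) := by
            rw [Prod.smul_mk, Prod.mk.injEq, MulAction.Quotient.smul_coe, MulAction.Quotient.smul_coe]
            constructor
            · rw [QuotientGroup.eq]
              have e1 : (t • a)⁻¹ * a = (a⁻¹ * t * a)⁻¹ := by
                simp only [smul_eq_mul]
                group
              rw [e1]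
              exact inv_mem ht1
            · rw [QuotientGroup.eq]
              have e1 : (t • b)⁻¹ * b = (b⁻¹ * t * b)⁻¹ := by
                simp only [smul_eq_mul]
                group
              rw [e1]
              exact inv_mem ht2
          change f s • (((a : G) : G ⧸ H), ((b : G) : G ⧸ K)) = x
          rw [← hg', hst, mul_smul, htfix]
  rw [e]
  field_simp

end Abstract

variable {n : ℕ} {F : Type*} [Field F]

/-- A diagonal element of `GL_n`. -/
def dg (d : Fin n → Fˣ) : GL (Fin n) F where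
  val := Matrix.diagonal (fun i => (d i : F))
  inv := Matrix.diagonal (fun i => ((d i)⁻¹ : Fˣ))
  val_inv := by
    rw [Matrix.diagonal_mul_diagonal, ← Matrix.diagonal_one]
    congr 1
    funext i
    simp
  inv_val := by
    rw [Matrix.diagonal_mul_diagonal, ← Matrix.diagonal_one]
    congr 1
    funext i
    simp

lemma dg_val (d : Fin n → Fˣ) : ((dg d : GL (Fin n) F) : Matrix (Fin n) (Fin n) F) = Matrix.diagonal (fun i => (d i : F)) := rfl

lemma dg_mem_Bor (d : Fin n → Fˣ) : dg d ∈ Bor (n := n) F := by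
  rw [mem_Par, dg_val]
  intro i j hij
  rw [Matrix.diagonal_apply_ne]
  intro e
  subst e
  exact lt_irrefl _ hij

lemma dg_mul_Pm (d : Fin n → Fˣ) (w : Equiv.Perm (Fin n)) : dg d * Pm F w = Pm F w * dg (fun i => d (w i)) := by
  apply Units.ext
  ext i j
  change (Matrix.diagonal (fun i => (d i : F)) * pm F w) i j = (pm F w * Matrix.diagonal (fun i => (d (w i) : F))) i j
  rw [Matrix.diagonal_mul, Matrix.mul_diagonal]
  simp only [pm]
  by_cases h : i = w j
  · subst h
    simp
  · simp [h]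

/-- The stabiliser of a pair of flags has surjective determinant. -/
theorem exists_stab {ℓ ℓ' : Fin n → ℕ} (hℓ : Monotone ℓ) (hℓ' : Monotone ℓ') [NeZero n]
    (g : GL (Fin n) F) (u : Fˣ) :
    ∃ t : GL (Fin n) F, t ∈ Par F ℓ ∧ g⁻¹ * t * g ∈ Par F ℓ' ∧
      (t : Matrix (Fin n) (Fin n) F).det = (u : F) := by
  classical
  obtain ⟨b, hb, b', hb', w, rfl⟩ := bruhat_GL g
  let d : Fin n → Fˣ := Function.update 1 0 u
  refine ⟨b * dg d * b⁻¹, ?_, ?_, ?_⟩
  · exact Bor_le hℓ (mul_mem (mul_mem hb (dg_mem_Bor d)) (inv_mem hb))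
  · have e : (b * Pm F w * b')⁻¹ * (b * dg d * b⁻¹) * (b * Pm F w * b') = b'⁻¹ * dg (fun i => d (w i)) * b' := by
      have h2 := dg_mul_Pm (F := F) d w
      calc (b * Pm F w * b')⁻¹ * (b * dg d * b⁻¹) * (b * Pm F w * b')
          = b'⁻¹ * (Pm F w)⁻¹ * (dg d * Pm F w) * b' := by group
        _ = b'⁻¹ * dg (fun i => d (w i)) * b' := by rw [h2]; group
    rw [e]
    exact Bor_le hℓ' (mul_mem (mul_mem (inv_mem hb') (dg_mem_Bor _)) hb')
  · have h1 : ((b * dg d * b⁻¹ : GL (Fin n) F) : Matrix (Fin n) (Fin n) F).det = ((dg d : GL (Fin n) F) : Matrix (Fin n) (Fin n) F).det := by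
      have : ((b * dg d * b⁻¹ : GL (Fin n) F) : Matrix (Fin n) (Fin n) F) =
          (b : Matrix (Fin n) (Fin n) F) * ((dg d : GL (Fin n) F) : Matrix (Fin n) (Fin n) F) * ((b⁻¹ : GL (Fin n) F) : Matrix (Fin n) (Fin n) F) := rfl
      rw [this, Matrix.det_mul, Matrix.det_mul, mul_right_comm, ← Matrix.det_mul]
      have h3 : (b : Matrix (Fin n) (Fin n) F) * ((b⁻¹ : GL (Fin n) F) : Matrix (Fin n) (Fin n) F) = 1 := by
        rw [← Units.val_mul, mul_inv_cancel, Units.val_one]
      rw [h3, Matrix.det_one, one_mul]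
    rw [h1, dg_val, Matrix.det_diagonal]
    rw [Finset.prod_eq_single (0 : Fin n)]
    · simp [d]
    · intro i _ hi
      simp [d, Function.update_of_ne hi]
    · simp

/-- The inclusion of `SL_n` in `GL_n`. -/
def incSL (n : ℕ) (F : Type*) [Field F] : Matrix.SpecialLinearGroup (Fin n) F →* GL (Fin n) F :=
  Matrix.SpecialLinearGroup.toGL

lemma incSL_val (s : Matrix.SpecialLinearGroup (Fin n) F) : ((incSL n F s : GL (Fin n) F) : Matrix (Fin n) (Fin n) F) = (s : Matrix (Fin n) (Fin n) F) := rfl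

/-- Comparison of inner products of flag characters between `SL_n` and `GL_n`. -/
theorem inner_SL [Finite F] [NeZero n] [Fintype (GL (Fin n) F)] [Fintype (Matrix.SpecialLinearGroup (Fin n) F)] {ℓ ℓ' : Fin n → ℕ}
    (hℓ : Monotone ℓ) (hℓ' : Monotone ℓ') :
    (Nat.card (Matrix.SpecialLinearGroup (Fin n) F) : ℂ)⁻¹ * ∑ s : Matrix.SpecialLinearGroup (Fin n) F,
        Cfsg.fixedPointCharacter (Par F ℓ) (incSL n F s) * Cfsg.fixedPointCharacter (Par F ℓ') (incSL n F s) =
      (Nat.card (GL (Fin n) F) : ℂ)⁻¹ * ∑ g : GL (Fin n) F,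
        Cfsg.fixedPointCharacter (Par F ℓ) g * Cfsg.fixedPointCharacter (Par F ℓ') g := by
  classical
  have : Finite (GL (Fin n) F) := inferInstance
  have : Finite (Matrix.SpecialLinearGroup (Fin n) F) := inferInstance
  apply inner_comp
  intro a b x
  have hdet : (x : Matrix (Fin n) (Fin n) F).det ≠ 0 := by
    have := Matrix.GeneralLinearGroup.det x
    exact (Matrix.isUnit_iff_isUnit_det _).mp x.isUnit |>.ne_zero
  obtain ⟨t, ht1, ht2, ht3⟩ := exists_stab hℓ hℓ' (a⁻¹ * b) (Units.mk0 _ hdet)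
  have ht3' : (t : Matrix (Fin n) (Fin n) F).det = (x : Matrix (Fin n) (Fin n) F).det := ht3
  let t' : GL (Fin n) F := a * t * a⁻¹
  have hdt' : (t' : Matrix (Fin n) (Fin n) F).det = (x : Matrix (Fin n) (Fin n) F).det := by
    have : (t' : Matrix (Fin n) (Fin n) F) = (a : Matrix (Fin n) (Fin n) F) * (t : Matrix (Fin n) (Fin n) F) * ((a⁻¹ : GL (Fin n) F) : Matrix (Fin n) (Fin n) F) := rfl
    rw [this, Matrix.det_mul, Matrix.det_mul, mul_right_comm, ← Matrix.det_mul]
    have h3 : (a : Matrix (Fin n) (Fin n) F) * ((a⁻¹ : GL (Fin n) F) : Matrix (Fin n) (Fin n) F) = 1 := by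
      rw [← Units.val_mul, mul_inv_cancel, Units.val_one]
    rw [h3, Matrix.det_one, one_mul, ht3']
  have hs : ((x * t'⁻¹ : GL (Fin n) F) : Matrix (Fin n) (Fin n) F).det = 1 := by
    have : ((x * t'⁻¹ : GL (Fin n) F) : Matrix (Fin n) (Fin n) F) = (x : Matrix (Fin n) (Fin n) F) * ((t'⁻¹ : GL (Fin n) F) : Matrix (Fin n) (Fin n) F) := rfl
    rw [this, Matrix.det_mul, ← hdt', ← Matrix.det_mul, ← Units.val_mul, mul_inv_cancel, Units.val_one, Matrix.det_one]
  refine ⟨⟨((x * t'⁻¹ : GL (Fin n) F) : Matrix (Fin n) (Fin n) F), hs⟩, t', ?_, ?_, ?_⟩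
  · apply Units.ext
    change (x : Matrix (Fin n) (Fin n) F) = ((x * t'⁻¹ * t' : GL (Fin n) F) : Matrix (Fin n) (Fin n) F)
    rw [inv_mul_cancel_right]
  · have e : a⁻¹ * t' * a = t := by
      simp only [t']
      group
    rw [e]
    exact ht1
  · have e : b⁻¹ * t' * b = (a⁻¹ * b)⁻¹ * t * (a⁻¹ * b) := by
      simp only [t']
      group
    rw [e]
    exact ht2

/-- Restricting the alternating sums to `SL_n` does not change their norm. -/
theorem inner_unipotent_SL [Finite F] [NeZero n] [Fintype (GL (Fin n) F)] [Fintype (Matrix.SpecialLinearGroup (Fin n) F)] (ν ν' : Fin n → ℕ) :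
    (Nat.card (Matrix.SpecialLinearGroup (Fin n) F) : ℂ)⁻¹ * ∑ s : Matrix.SpecialLinearGroup (Fin n) F,
        Cfsg.unipotentCharacterGL n F ν (incSL n F s) * Cfsg.unipotentCharacterGL n F ν' (incSL n F s) =
      (Nat.card (GL (Fin n) F) : ℂ)⁻¹ * ∑ g : GL (Fin n) F,
        Cfsg.unipotentCharacterGL n F ν g * Cfsg.unipotentCharacterGL n F ν' g := by
  classical
  let c : (Fin n → ℕ) → Equiv.Perm (Fin n) → ℂ := fun ν κ =>
    if ∀ i : Fin n, (κ i).val ≤ ν i + i.val then ((Equiv.Perm.sign κ : ℤ) : ℂ) else 0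
  let π : (Fin n → ℕ) → Equiv.Perm (Fin n) → GL (Fin n) F → ℂ := fun ν κ =>
    Cfsg.fixedPointCharacter (Par F (Cfsg.compLabel fun i => ν i + i.val - (κ i).val))
  have hχ : ∀ (ν : Fin n → ℕ) (g : GL (Fin n) F), Cfsg.unipotentCharacterGL n F ν g = ∑ κ, c ν κ * π ν κ g := by
    intro ν g
    unfold Cfsg.unipotentCharacterGL
    apply Finset.sum_congr rfl
    intro κ _
    simp only [c, π]
    by_cases h : ∀ i : Fin n, (κ i).val ≤ ν i + i.val
    · rw [if_pos h, if_pos h, parabolicGL_eq]
    · rw [if_neg h, if_neg h, zero_mul]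
  simp only [hχ, Finset.sum_mul_sum]
  have hS : ∀ s : Matrix.SpecialLinearGroup (Fin n) F, ∑ i, ∑ j, c ν i * π ν i (incSL n F s) * (c ν' j * π ν' j (incSL n F s)) =
      ∑ i, ∑ j, (c ν i * c ν' j) * (π ν i (incSL n F s) * π ν' j (incSL n F s)) := by
    intro s
    apply Finset.sum_congr rfl
    intro i _
    apply Finset.sum_congr rfl
    intro j _
    ring
  have hG : ∀ g : GL (Fin n) F, ∑ i, ∑ j, c ν i * π ν i g * (c ν' j * π ν' j g) =
      ∑ i, ∑ j, (c ν i * c ν' j) * (π ν i g * π ν' j g) := by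
    intro g
    apply Finset.sum_congr rfl
    intro i _
    apply Finset.sum_congr rfl
    intro j _
    ring
  simp only [hS, hG]
  rw [Finset.sum_comm, Finset.mul_sum, Finset.sum_comm (s := Finset.univ (α := GL (Fin n) F)), Finset.mul_sum]
  apply Finset.sum_congr rfl
  intro i _
  rw [Finset.sum_comm, Finset.mul_sum, Finset.sum_comm (s := Finset.univ (α := GL (Fin n) F)), Finset.mul_sum]
  apply Finset.sum_congr rfl
  intro j _
  simp only [← Finset.mul_sum]
  rw [mul_left_comm, mul_left_comm (Nat.card (GL (Fin n) F) : ℂ)⁻¹]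
  congr 1
  exact inner_SL (compLabel_mono _) (compLabel_mono _)

end Cfsg.Agent.Lib.Classical.Flags
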