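import Cfsg.Agent.Lib.Classical.Flags.Orbits

/-!
Block labels of compositions and contingency tables.
-/

set_option autoImplicit false
set_option linter.unusedSectionVars false
set_option linter.unusedSimpArgs false
set_option linter.style.haveILetI false

open scoped MatrixGroups
open Matrix

namespace Cfsg.Agent.Lib.Classical.Flags

variable {n : ℕ}

lemma compLabel_mono (μ : Fin n → ℕ) : Monotone (Cfsg.compLabel μ) := by
  intro i i' h
  unfold Cfsg.compLabel
  apply Finset.card_le_card
  intro j hj
  simp only [Finset.mem_filter, Finset.mem_univ, true_and] at hj ⊢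
  exact le_trans hj h

lemma compLabel_lt {μ : Fin n → ℕ} (hμ : ∑ i, μ i = n) (i : Fin n) : Cfsg.compLabel μ i < n := by
  have hn : 0 < n := lt_of_le_of_lt (Nat.zero_le _) i.2
  let last : Fin n := ⟨n - 1, by omega⟩
  have hlast : ∑ k ∈ Finset.univ.filter (fun k : Fin n => k ≤ last), μ k = n := by
    rw [Finset.filter_true_of_mem, hμ]
    intro k _
    have := k.2
    change k.val ≤ n - 1
    omega
  have hnot : last ∉ Finset.univ.filter (fun j : Fin n => (∑ k ∈ Finset.univ.filter (fun k : Fin n => k ≤ j), μ k) ≤ i.val) := by
    simp only [Finset.mem_filter, Finset.mem_univ, true_and, not_le]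
    rw [hlast]
    exact i.2
  have := Finset.card_lt_univ_of_notMem hnot
  simpa [Cfsg.compLabel] using this

/-- The partial sum before `j`. -/
def preSum (μ : Fin n → ℕ) (j : Fin n) : ℕ := ∑ k ∈ Finset.univ.filter (fun k : Fin n => k < j), μ k

lemma preSum_add_le {μ : Fin n → ℕ} (hμ : ∑ i, μ i = n) (j : Fin n) : preSum μ j + μ j ≤ n := by
  refine le_trans ?_ hμ.le
  rw [preSum]
  have : ∑ k ∈ Finset.univ.filter (fun k : Fin n => k < j), μ k + μ j =
      ∑ k ∈ insert j (Finset.univ.filter (fun k : Fin n => k < j)), μ k := by
    rw [Finset.sum_insert (by simp), add_comm]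
  rw [this]
  exact Finset.sum_le_sum_of_subset (Finset.subset_univ _)

lemma compLabel_eq {μ : Fin n → ℕ} (j : Fin n) (v : Fin n) (h1 : preSum μ j ≤ v.val)
    (h2 : v.val < preSum μ j + μ j) : Cfsg.compLabel μ v = j.val := by
  unfold Cfsg.compLabel
  have e : Finset.univ.filter (fun j' : Fin n => (∑ k ∈ Finset.univ.filter (fun k : Fin n => k ≤ j'), μ k) ≤ v.val) =
      Finset.Iio j := by
    ext j'
    simp only [Finset.mem_filter, Finset.mem_univ, true_and, Finset.mem_Iio]
    constructor
    · intro h
      by_contra hlt
      have hj : j ≤ j' := not_lt.mp hlt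
      have h3 : preSum μ j + μ j ≤ ∑ k ∈ Finset.univ.filter (fun k : Fin n => k ≤ j'), μ k := by
        have : ∑ k ∈ Finset.univ.filter (fun k : Fin n => k < j), μ k + μ j =
            ∑ k ∈ insert j (Finset.univ.filter (fun k : Fin n => k < j)), μ k := by
          rw [Finset.sum_insert (by simp), add_comm]
        rw [preSum, this]
        apply Finset.sum_le_sum_of_subset
        intro k hk
        simp only [Finset.mem_insert, Finset.mem_filter, Finset.mem_univ, true_and] at hk ⊢
        rcases hk with rfl | hk
        · exact hj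
        · exact le_trans (le_of_lt hk) hj
      omega
    · intro h
      refine le_trans ?_ h1
      apply Finset.sum_le_sum_of_subset
      intro k hk
      simp only [Finset.mem_filter, Finset.mem_univ, true_and] at hk ⊢
      exact lt_of_le_of_lt hk h
  rw [e, Fin.card_Iio]

/-- The fibres of the block labelling have the sizes of the parts. -/
theorem card_compLabel {μ : Fin n → ℕ} (hμ : ∑ i, μ i = n) (j : Fin n) :
    (Finset.univ.filter (fun i : Fin n => Cfsg.compLabel μ i = j.val)).card = μ j := by
  classical
  -- lower bound for every part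
  have hlow : ∀ j : Fin n, μ j ≤ (Finset.univ.filter (fun i : Fin n => Cfsg.compLabel μ i = j.val)).card := by
    intro j
    have hle := preSum_add_le hμ j
    have : (Finset.univ (α := Fin (μ j))).card ≤ (Finset.univ.filter (fun i : Fin n => Cfsg.compLabel μ i = j.val)).card := by
      apply Finset.card_le_card_of_injOn (fun r => (⟨preSum μ j + r.val, by have := r.2; omega⟩ : Fin n))
      · intro r _
        simp only [Finset.coe_filter, Finset.mem_univ, true_and, Set.mem_ofPred_eq]
        apply compLabel_eq j _
        · exact Nat.le_add_right _ _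
        · have := r.2
          change preSum μ j + r.val < _
          omega
      · intro r _ r' _ h
        have := congrArg Fin.val h
        simp only at this
        exact Fin.ext (by omega)
    simpa using this
  -- the total
  have htot : ∑ j : Fin n, (Finset.univ.filter (fun i : Fin n => Cfsg.compLabel μ i = j.val)).card ≤ n := by
    rw [← Finset.card_biUnion]
    · calc _ ≤ (Finset.univ (α := Fin n)).card := Finset.card_le_card (Finset.subset_univ _)
        _ = n := by simp
    · intro a _ b _ hab
      change Disjoint _ _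
      rw [Finset.disjoint_left]
      intro i hi hi'
      simp only [Finset.mem_filter, Finset.mem_univ, true_and] at hi hi'
      exact hab (Fin.ext (hi.symm.trans hi'))
  apply le_antisymm _ (hlow j)
  by_contra hlt
  push Not at hlt
  have := Finset.sum_lt_sum (s := Finset.univ) (f := μ)
    (g := fun j : Fin n => (Finset.univ.filter (fun i : Fin n => Cfsg.compLabel μ i = j.val)).card)
    (fun i _ => hlow i) ⟨j, Finset.mem_univ _, hlt⟩
  omega

/-- Contingency tables with given margins. -/
def Tab (α β : Fin n → ℕ) : Type :=
  {M : Fin n → Fin n → ℕ // (∀ i, ∑ j, M i j = α i) ∧ ∀ j, ∑ i, M i j = β j}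

/-- The number of contingency tables with given margins. -/
noncomputable def NT (α β : Fin n → ℕ) : ℕ := Nat.card (Tab α β)

section
variable {α β : Fin n → ℕ} (hα : ∑ i, α i = n) (hβ : ∑ i, β i = n)
include hα hβ

lemma T_zero_left (w : Equiv.Perm (Fin n)) (i j : ℕ) (hi : n ≤ i) :
    T (Cfsg.compLabel α) (Cfsg.compLabel β) w i j = 0 := by
  unfold T
  rw [Finset.card_eq_zero, Finset.filter_eq_empty_iff]
  rintro k _ ⟨_, h2⟩
  have := compLabel_lt hα (w k)
  omega

lemma T_zero_right (w : Equiv.Perm (Fin n)) (i j : ℕ) (hj : n ≤ j) :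
    T (Cfsg.compLabel α) (Cfsg.compLabel β) w i j = 0 := by
  unfold T
  rw [Finset.card_eq_zero, Finset.filter_eq_empty_iff]
  rintro k _ ⟨h2, _⟩
  have := compLabel_lt hβ k
  omega

lemma sum_T_right (w : Equiv.Perm (Fin n)) (i : Fin n) :
    ∑ j : Fin n, T (Cfsg.compLabel α) (Cfsg.compLabel β) w i.val j.val = α i := by
  classical
  unfold T
  rw [← Finset.card_biUnion]
  · rw [← card_compLabel hα i]
    apply Finset.card_bij (fun k _ => w k)
    · intro k hk
      simp only [Finset.mem_biUnion, Finset.mem_filter, Finset.mem_univ, true_and] at hk ⊢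
      obtain ⟨_, _, h⟩ := hk
      exact h
    · intro a _ b _ h
      exact w.injective h
    · intro b hb
      simp only [Finset.mem_filter, Finset.mem_univ, true_and] at hb
      refine ⟨w⁻¹ b, ?_, by simp⟩
      simp only [Finset.mem_biUnion, Finset.mem_filter, Finset.mem_univ, true_and]
      refine ⟨⟨_, compLabel_lt hβ (w⁻¹ b)⟩, rfl, ?_⟩
      simpa using hb
  · intro a _ b _ hab
    change Disjoint _ _
    rw [Finset.disjoint_left]
    intro k hk hk'
    simp only [Finset.mem_filter, Finset.mem_univ, true_and] at hk hk'
    exact hab (Fin.ext (hk.1.symm.trans hk'.1))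

lemma sum_T_left (w : Equiv.Perm (Fin n)) (j : Fin n) :
    ∑ i : Fin n, T (Cfsg.compLabel α) (Cfsg.compLabel β) w i.val j.val = β j := by
  classical
  unfold T
  rw [← Finset.card_biUnion]
  · rw [← card_compLabel hβ j]
    congr 1
    ext k
    simp only [Finset.mem_biUnion, Finset.mem_filter, Finset.mem_univ, true_and]
    constructor
    · rintro ⟨_, h, _⟩
      exact h
    · intro h
      exact ⟨⟨_, compLabel_lt hα (w k)⟩, h, rfl⟩
  · intro a _ b _ hab
    change Disjoint _ _
    rw [Finset.disjoint_left]
    intro k hk hk'
    simp only [Finset.mem_filter, Finset.mem_univ, true_and] at hk hk'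
    exact hab (Fin.ext (hk.2.symm.trans hk'.2))

/-- The table of a permutation as a contingency table. -/
def TT (w : Equiv.Perm (Fin n)) : Tab α β :=
  ⟨fun i j => T (Cfsg.compLabel α) (Cfsg.compLabel β) w i.val j.val,
    fun i => sum_T_right hα hβ w i, fun j => sum_T_left hα hβ w j⟩

lemma TT_eq_iff (w w' : Equiv.Perm (Fin n)) :
    T (Cfsg.compLabel α) (Cfsg.compLabel β) w = T (Cfsg.compLabel α) (Cfsg.compLabel β) w' ↔
      TT hα hβ w = TT hα hβ w' := by
  constructor
  · intro h
    apply Subtype.ext
    funext i j
    exact congrFun (congrFun h _) _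
  · intro h
    funext i j
    by_cases hi : i < n
    · by_cases hj : j < n
      · exact congrFun (congrFun (congrArg Subtype.val h) ⟨i, hi⟩) ⟨j, hj⟩
      · rw [T_zero_right hα hβ _ _ _ (not_lt.mp hj), T_zero_right hα hβ _ _ _ (not_lt.mp hj)]
    · rw [T_zero_left hα hβ _ _ _ (not_lt.mp hi), T_zero_left hα hβ _ _ _ (not_lt.mp hi)]

/-- Every contingency table with the right margins is the table of a permutation. -/
lemma TT_surjective : Function.Surjective (TT hα hβ) := by
  classical
  rintro ⟨M, hM1, hM2⟩
  let R := Σ p : Fin n × Fin n, Fin (M p.1 p.2)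
  have hcard : ∀ (q : Fin n × Fin n → Prop) [DecidablePred q],
      Nat.card {r : R // q r.1} = ∑ p : Fin n × Fin n, if q p then M p.1 p.2 else 0 := by
    intro q _
    rw [Nat.card_congr (Equiv.subtypeSigmaEquiv (fun p : Fin n × Fin n => Fin (M p.1 p.2)) q),
      Nat.card_sigma]
    simp only [Nat.card_eq_fintype_card, Fintype.card_fin]
    rw [← Finset.sum_filter, Finset.sum_subtype (p := q) _ (by simp)]
  have hfib : ∀ (μ : Fin n → ℕ) (hμ : ∑ i, μ i = n) (x : ℕ),
      Nat.card {k : Fin n // Cfsg.compLabel μ k = x} = if h : x < n then μ ⟨x, h⟩ else 0 := by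
    intro μ hμ x
    rw [Nat.card_eq_fintype_card, Fintype.card_subtype]
    split_ifs with h
    · exact card_compLabel hμ ⟨x, h⟩
    · rw [Finset.card_eq_zero, Finset.filter_eq_empty_iff]
      intro k _ hk
      have := compLabel_lt hμ k
      omega
  obtain ⟨e1, he1⟩ := exists_equiv_of_fibers (α := Fin n) (α' := R) (β := ℕ) (Cfsg.compLabel β)
    (fun r => r.1.2.val) (by
      intro x
      rw [hfib β hβ x]
      have := hcard (fun p => p.2.val = x)
      rw [this, Fintype.sum_prod_type]
      split_ifs with h
      · rw [← hM2 ⟨x, h⟩]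
        apply Finset.sum_congr rfl
        intro i _
        rw [Finset.sum_eq_single (⟨x, h⟩ : Fin n)]
        · simp
        · intro b _ hb
          rw [if_neg]
          intro h'
          exact hb (Fin.ext h')
        · simp
      · symm
        apply Finset.sum_eq_zero
        intro i _
        apply Finset.sum_eq_zero
        intro j _
        rw [if_neg]
        intro h'
        have := j.2
        simp only at h'
        omega)
  obtain ⟨e2, he2⟩ := exists_equiv_of_fibers (α := Fin n) (α' := R) (β := ℕ) (Cfsg.compLabel α)
    (fun r => r.1.1.val) (by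
      intro x
      rw [hfib α hα x]
      have := hcard (fun p => p.1.val = x)
      rw [this, Fintype.sum_prod_type]
      split_ifs with h
      · rw [← hM1 ⟨x, h⟩]
        symm
        rw [Finset.sum_eq_single (⟨x, h⟩ : Fin n)]
        · simp
        · intro b _ hb
          apply Finset.sum_eq_zero
          intro j _
          rw [if_neg]
          intro h'
          exact hb (Fin.ext h')
        · simp
      · symm
        apply Finset.sum_eq_zero
        intro i _
        apply Finset.sum_eq_zero
        intro j _
        rw [if_neg]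
        intro h'
        have := i.2
        simp only at h'
        omega)
  refine ⟨e1.trans e2.symm, ?_⟩
  apply Subtype.ext
  funext i j
  change T _ _ _ _ _ = M i j
  unfold T
  have hw : ∀ k, Cfsg.compLabel α ((e1.trans e2.symm) k) = (e1 k).1.1.val := by
    intro k
    have := he2 ((e1.trans e2.symm) k)
    simp only [Equiv.trans_apply, Equiv.apply_symm_apply] at this ⊢
    exact this.symm
  have h1 : (Finset.univ.filter (fun k : Fin n => Cfsg.compLabel β k = j.val ∧
      Cfsg.compLabel α ((e1.trans e2.symm) k) = i.val)).card =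
      Nat.card {r : R // r.1 = (i, j)} := by
    rw [← Fintype.card_subtype, ← Nat.card_eq_fintype_card]
    apply Nat.card_congr
    refine Equiv.subtypeEquiv e1 ?_
    intro k
    rw [hw, ← he1 k, Prod.ext_iff]
    constructor
    · rintro ⟨h1, h2⟩
      exact ⟨Fin.ext h2, Fin.ext h1⟩
    · rintro ⟨h1, h2⟩
      exact ⟨congrArg Fin.val h2, congrArg Fin.val h1⟩
  rw [h1, hcard (fun p => p = (i, j)), Finset.sum_eq_single (i, j)]
  · simp
  · intro b _ hb
    rw [if_neg hb]
  · simp

/-- The number of orbits is the number of contingency tables. -/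
theorem card_range_T : Nat.card (Set.range (T (Cfsg.compLabel α) (Cfsg.compLabel β))) = NT α β := by
  rw [card_range_eq _ (TT hα hβ) (TT_eq_iff hα hβ), (TT_surjective hα hβ).range_eq]
  exact Nat.card_congr (Equiv.Set.univ _)

end

end Cfsg.Agent.Lib.Classical.Flags
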