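import Cfsg.Agent.Lib.Classical.Flags.CauchyDet
import Cfsg.Agent.Lib.Classical.Flags.Table

/-!
The generating series of contingency tables and Cauchy's identity at the level of coefficients.
-/

set_option autoImplicit false
set_option linter.unusedSectionVars false
set_option linter.unusedSimpArgs false
set_option linter.style.haveILetI false

open Matrix MvPowerSeries

namespace Cfsg.Agent.Lib.Classical.Flags

variable {n : ℕ}

/-- Tables with given support and margins. -/
abbrev TabS (S : Finset (Fin n × Fin n)) (a b : Fin n → ℕ) : Type :=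
  {M : Fin n → Fin n → ℕ // (∀ p, p ∉ S → M p.1 p.2 = 0) ∧ (∀ i, ∑ j, M i j = a i) ∧ ∀ j, ∑ i, M i j = b j}

instance TabS_finite (S : Finset (Fin n × Fin n)) (a b : Fin n → ℕ) : Finite (TabS S a b) := by
  apply Finite.of_injective (β := (i : Fin n) → Fin n → Fin (a i + 1))
    (fun M i j => ⟨M.1 i j, by
      have := Finset.single_le_sum (f := fun j => M.1 i j) (fun _ _ => Nat.zero_le _) (Finset.mem_univ j)
      have h2 := M.2.2.1 i
      omega⟩)
  intro M M' h
  apply Subtype.ext
  funext i j
  have := congrFun (congrFun h i) j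
  exact congrArg Fin.val this

/-- The number of tables. -/
noncomputable def NS (S : Finset (Fin n × Fin n)) (a b : Fin n → ℕ) : ℕ := Nat.card (TabS S a b)

/-- The generating series of tables with given support. -/
noncomputable def PS (S : Finset (Fin n × Fin n)) : MvPowerSeries (Fin n ⊕ Fin n) ℤ :=
  fun m => (NS S (fun i => m (Sum.inl i)) (fun j => m (Sum.inr j)) : ℤ)

lemma coeff_PS (S : Finset (Fin n × Fin n)) (m : Fin n ⊕ Fin n →₀ ℕ) :
    coeff m (PS S) = (NS S (fun i => m (Sum.inl i)) (fun j => m (Sum.inr j)) : ℤ) := rfl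

/-- The table with one more unit at `p`. -/
def addP (p : Fin n × Fin n) (M : Fin n → Fin n → ℕ) : Fin n → Fin n → ℕ :=
  fun i j => M i j + if (i, j) = p then 1 else 0

/-- The table with one unit less at `p`. -/
def subP (p : Fin n × Fin n) (M : Fin n → Fin n → ℕ) : Fin n → Fin n → ℕ :=
  fun i j => M i j - if (i, j) = p then 1 else 0

lemma sum_addP_row (p : Fin n × Fin n) (M : Fin n → Fin n → ℕ) (i : Fin n) :
    ∑ j, addP p M i j = ∑ j, M i j + if i = p.1 then 1 else 0 := by
  unfold addP
  rw [Finset.sum_add_distrib]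
  congr 1
  by_cases h : i = p.1
  · rw [if_pos h, Finset.sum_eq_single p.2]
    · have : (i, p.2) = p := by rw [h]
      simp [this]
    · intro b _ hb
      rw [if_neg]
      intro h'
      exact hb (congrArg Prod.snd h')
    · simp
  · rw [if_neg h]
    apply Finset.sum_eq_zero
    intro j _
    rw [if_neg]
    intro h'
    exact h (congrArg Prod.fst h')

lemma sum_addP_col (p : Fin n × Fin n) (M : Fin n → Fin n → ℕ) (j : Fin n) :
    ∑ i, addP p M i j = ∑ i, M i j + if j = p.2 then 1 else 0 := by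
  unfold addP
  rw [Finset.sum_add_distrib]
  congr 1
  by_cases h : j = p.2
  · rw [if_pos h, Finset.sum_eq_single p.1]
    · have : (p.1, j) = p := by rw [h]
      simp [this]
    · intro b _ hb
      rw [if_neg]
      intro h'
      exact hb (congrArg Prod.fst h')
    · simp
  · rw [if_neg h]
    apply Finset.sum_eq_zero
    intro i _
    rw [if_neg]
    intro h'
    exact h (congrArg Prod.snd h')

lemma addP_subP (p : Fin n × Fin n) (M : Fin n → Fin n → ℕ) (hM : M p.1 p.2 ≠ 0) :
    addP p (subP p M) = M := by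
  funext i j
  unfold addP subP
  by_cases h : (i, j) = p
  · subst h
    simp only [if_true]
    have := Nat.pos_of_ne_zero hM
    simp only at this
    omega
  · simp [h]

lemma subP_addP (p : Fin n × Fin n) (M : Fin n → Fin n → ℕ) : subP p (addP p M) = M := by
  funext i j
  simp [addP, subP]

/-- Decrement of a margin. -/
def dec (i : Fin n) (a : Fin n → ℕ) : Fin n → ℕ := fun i' => a i' - if i' = i then 1 else 0

lemma NS_insert {S : Finset (Fin n × Fin n)} {p : Fin n × Fin n} (hp : p ∉ S) (a b : Fin n → ℕ) :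
    NS (insert p S) a b = NS S a b +
      if 1 ≤ a p.1 ∧ 1 ≤ b p.2 then NS (insert p S) (dec p.1 a) (dec p.2 b) else 0 := by
  classical
  unfold NS
  rw [← Nat.card_congr (Equiv.sumCompl (fun M : TabS (insert p S) a b => M.1 p.1 p.2 = 0)), Nat.card_sum]
  congr 1
  · apply Nat.card_congr
    refine ⟨fun M => ⟨M.1.1, ?_, M.1.2.2⟩, fun M => ⟨⟨M.1, ?_, M.2.2⟩, M.2.1 p hp⟩, ?_, ?_⟩
    · intro q hq
      by_cases hqp : q = p
      · rw [hqp]
        exact M.2
      · exact M.1.2.1 q (by simp [hqp, hq])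
    · intro q hq
      exact M.2.1 q (fun h => hq (Finset.mem_insert_of_mem h))
    · intro M
      rfl
    · intro M
      rfl
  · split_ifs with hpos
    · apply Nat.card_congr
      refine ⟨fun M => ⟨subP p M.1.1, ?_, ?_, ?_⟩, fun M => ⟨⟨addP p M.1, ?_, ?_, ?_⟩, ?_⟩, ?_, ?_⟩
      · intro q hq
        have := M.1.2.1 q hq
        simp only [subP]
        rw [this]
        simp
      · intro i
        have h1 := sum_addP_row p (subP p M.1.1) i
        rw [addP_subP p _ M.2, M.1.2.2.1 i] at h1
        simp only [dec]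
        rw [h1]
        simp
      · intro j
        have h1 := sum_addP_col p (subP p M.1.1) j
        rw [addP_subP p _ M.2, M.1.2.2.2 j] at h1
        simp only [dec]
        rw [h1]
        simp
      · intro q hq
        have hqp : q ≠ p := fun h => hq (by simp [h])
        have := M.2.1 q hq
        simp only [addP]
        rw [this, if_neg (fun h => hqp (Prod.ext (congrArg Prod.fst h) (congrArg Prod.snd h)))]
      · intro i
        rw [sum_addP_row, M.2.2.1 i]
        simp only [dec]
        split_ifs with h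
        · have := hpos.1
          rw [h]
          omega
        · simp
      · intro j
        rw [sum_addP_col, M.2.2.2 j]
        simp only [dec]
        split_ifs with h
        · have := hpos.2
          rw [h]
          omega
        · simp
      · simp [addP]
      · intro M
        apply Subtype.ext
        apply Subtype.ext
        exact addP_subP p _ M.2
      · intro M
        apply Subtype.ext
        exact subP_addP p _
    · rw [Nat.card_eq_zero]
      left
      constructor
      rintro ⟨M, hM⟩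
      apply hpos
      have h1 : 0 < M.1 p.1 p.2 := Nat.pos_of_ne_zero hM
      constructor
      · rw [← M.2.2.1 p.1]
        exact lt_of_lt_of_le h1 (Finset.single_le_sum (f := fun j => M.1 p.1 j) (fun _ _ => Nat.zero_le _) (Finset.mem_univ p.2))
      · rw [← M.2.2.2 p.2]
        exact lt_of_lt_of_le h1 (Finset.single_le_sum (f := fun i => M.1 i p.2) (fun _ _ => Nat.zero_le _) (Finset.mem_univ p.1))

/-- The series factor attached to a position. -/
noncomputable def UU (p : Fin n × Fin n) : MvPowerSeries (Fin n ⊕ Fin n) ℤ :=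
  1 - X (Sum.inl p.1) * X (Sum.inr p.2)

lemma PS_empty : PS (∅ : Finset (Fin n × Fin n)) = 1 := by
  classical
  ext m
  rw [coeff_PS, coeff_one]
  split_ifs with h
  · subst h
    have : NS (∅ : Finset (Fin n × Fin n)) (fun _ => 0) (fun _ => 0) = 1 := by
      unfold NS
      rw [Nat.card_eq_one_iff_unique]
      refine ⟨⟨?_⟩, ⟨⟨fun _ _ => 0, fun _ _ => rfl, by simp, by simp⟩⟩⟩
      intro M M'
      apply Subtype.ext
      funext i j
      rw [M.2.1 (i, j) (by simp), M'.2.1 (i, j) (by simp)]
    simpa using this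
  · have : NS (∅ : Finset (Fin n × Fin n)) (fun i => m (Sum.inl i)) (fun j => m (Sum.inr j)) = 0 := by
      unfold NS
      rw [Nat.card_eq_zero]
      left
      constructor
      intro M
      apply h
      ext x
      have h0 : ∀ i j, M.1 i j = 0 := fun i j => M.2.1 (i, j) (by simp)
      rcases x with i | j
      · have := M.2.2.1 i
        simp only [h0, Finset.sum_const_zero] at this
        simpa using this.symm
      · have := M.2.2.2 j
        simp only [h0, Finset.sum_const_zero] at this
        simpa using this.symm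
    rw [this]
    rfl

lemma PS_insert {S : Finset (Fin n × Fin n)} {p : Fin n × Fin n} (hp : p ∉ S) :
    PS (insert p S) * UU p = PS S := by
  classical
  ext m
  have he : (X (Sum.inl p.1) * X (Sum.inr p.2) : MvPowerSeries (Fin n ⊕ Fin n) ℤ) =
      monomial (Finsupp.single (Sum.inl p.1) 1 + Finsupp.single (Sum.inr p.2) 1) 1 := by
    rw [X_def, X_def, monomial_mul_monomial, mul_one]
  rw [UU, he, mul_sub, mul_one, map_sub, coeff_mul_monomial, coeff_PS, coeff_PS, NS_insert hp]
  have hle : (Finsupp.single (Sum.inl p.1) 1 + Finsupp.single (Sum.inr p.2) 1 ≤ m) ↔ (1 ≤ m (Sum.inl p.1) ∧ 1 ≤ m (Sum.inr p.2)) := by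
    constructor
    · intro h
      constructor
      · simpa using h (Sum.inl p.1)
      · simpa using h (Sum.inr p.2)
    · rintro ⟨h1, h2⟩ x
      rcases x with i | j
      · by_cases hi : i = p.1
        · subst hi
          simpa using h1
        · simp [Finsupp.single_apply, Ne.symm hi]
      · by_cases hj : j = p.2
        · subst hj
          simpa using h2
        · simp [Finsupp.single_apply, Ne.symm hj]
  by_cases hc : 1 ≤ m (Sum.inl p.1) ∧ 1 ≤ m (Sum.inr p.2)
  · rw [if_pos hc, if_pos (hle.mpr hc), coeff_PS]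
    have e1 : (fun i => (m - (Finsupp.single (Sum.inl p.1) 1 + Finsupp.single (Sum.inr p.2) 1) : Fin n ⊕ Fin n →₀ ℕ) (Sum.inl i)) =
        dec p.1 (fun i => m (Sum.inl i)) := by
      funext i
      simp only [dec, Finsupp.tsub_apply, Finsupp.add_apply, Finsupp.single_apply]
      by_cases hi : i = p.1
      · simp [hi]
      · simp [hi, Ne.symm hi]
    have e2 : (fun j => (m - (Finsupp.single (Sum.inl p.1) 1 + Finsupp.single (Sum.inr p.2) 1) : Fin n ⊕ Fin n →₀ ℕ) (Sum.inr j)) =
        dec p.2 (fun j => m (Sum.inr j)) := by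
      funext j
      simp only [dec, Finsupp.tsub_apply, Finsupp.add_apply, Finsupp.single_apply]
      by_cases hj : j = p.2
      · simp [hj]
      · simp [hj, Ne.symm hj]
    rw [e1, e2]
    push_cast
    ring
  · rw [if_neg hc, if_neg (fun h => hc (hle.mp h))]
    simp [coeff_PS]

lemma PS_mul_prod (S : Finset (Fin n × Fin n)) : PS S * ∏ p ∈ S, UU p = 1 := by
  classical
  induction S using Finset.induction_on with
  | empty => simp [PS_empty]
  | insert a s ha ih =>
    rw [Finset.prod_insert ha, ← mul_assoc, PS_insert ha, ih]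

/-- The support of a permutation. -/
def Sk (κ : Equiv.Perm (Fin n)) : Finset (Fin n × Fin n) :=
  Finset.univ.filter (fun p => p.2 = κ p.1)

lemma NS_Sk (κ : Equiv.Perm (Fin n)) (a b : Fin n → ℕ) :
    NS (Sk κ) a b = if ∀ i, a i = b (κ i) then 1 else 0 := by
  classical
  unfold NS
  have hzero : ∀ M : TabS (Sk κ) a b, ∀ i j, j ≠ κ i → M.1 i j = 0 := by
    intro M i j hj
    apply M.2.1 (i, j)
    simp [Sk, hj]
  have hrow : ∀ M : TabS (Sk κ) a b, ∀ i, M.1 i (κ i) = a i := by
    intro M i
    rw [← M.2.2.1 i, Finset.sum_eq_single (κ i)]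
    · intro j _ hj
      exact hzero M i j hj
    · simp
  have hcol : ∀ M : TabS (Sk κ) a b, ∀ i, M.1 i (κ i) = b (κ i) := by
    intro M i
    rw [← M.2.2.2 (κ i), Finset.sum_eq_single i]
    · intro i' _ hi'
      apply hzero M i' (κ i)
      intro h
      exact hi' (κ.injective h).symm
    · simp
  split_ifs with h
  · rw [Nat.card_eq_one_iff_unique]
    refine ⟨⟨?_⟩, ⟨⟨fun i j => if j = κ i then a i else 0, ?_, ?_, ?_⟩⟩⟩
    · intro M M'
      apply Subtype.ext
      funext i j
      by_cases hj : j = κ i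
      · rw [hj, hrow, hrow]
      · rw [hzero M i j hj, hzero M' i j hj]
    · intro q hq
      have : q.2 ≠ κ q.1 := by
        intro h'
        exact hq (by simp [Sk, h'])
      simp [this]
    · intro i
      simp
    · intro j
      rw [Finset.sum_eq_single (κ⁻¹ j)]
      · simp [h]
      · intro i' _ hi'
        change (if j = κ i' then a i' else 0) = 0
        rw [if_neg]
        intro h'
        apply hi'
        rw [h']
        simp
      · simp
  · rw [Nat.card_eq_zero]
    left
    constructor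
    intro M
    apply h
    intro i
    rw [← hrow M i, hcol]

lemma prod_Sk_compl (κ : Equiv.Perm (Fin n)) :
    (∏ p ∈ (Sk κ)ᶜ, UU p) = ∏ i, ∏ k ∈ Finset.univ.erase (κ i), (1 - X (Sum.inl i) * X (Sum.inr k)) := by
  classical
  have : (Sk κ)ᶜ = Finset.univ.filter (fun p : Fin n × Fin n => p.2 ≠ κ p.1) := by
    ext p
    simp [Sk]
  rw [this, Finset.prod_filter, Fintype.prod_prod_type]
  apply Finset.prod_congr rfl
  intro i _
  have h2 : Finset.univ.erase (κ i) = Finset.univ.filter (fun k => k ≠ κ i) := by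
    ext k
    simp
  rw [h2, Finset.prod_filter]
  rfl

/-- Cauchy's identity for generating series. -/
theorem cauchy_series :
    (vandermonde (fun i : Fin n => (X (Sum.inl i) : MvPowerSeries (Fin n ⊕ Fin n) ℤ))).det *
      (vandermonde (fun i : Fin n => (X (Sum.inr i) : MvPowerSeries (Fin n ⊕ Fin n) ℤ))).det * PS Finset.univ =
    ∑ κ : Equiv.Perm (Fin n), ((Equiv.Perm.sign κ : ℤ) : MvPowerSeries (Fin n ⊕ Fin n) ℤ) * PS (Sk κ) := by
  classical
  set PP := ∏ p ∈ (Finset.univ : Finset (Fin n × Fin n)), UU p with hPP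
  have h1 : PS Finset.univ * PP = 1 := PS_mul_prod _
  have hne : PP ≠ 0 := by
    intro h
    rw [h, mul_zero] at h1
    exact zero_ne_one h1
  apply mul_right_cancel₀ hne
  rw [mul_assoc, h1, mul_one]
  have hinj : Function.Injective (fun i : Fin n => (X (Sum.inr i) : MvPowerSeries (Fin n ⊕ Fin n) ℤ)) := by
    intro i j h
    have := X_inj.mp h
    exact Sum.inr_injective this
  haveI : IsDomain (MvPowerSeries (Fin n ⊕ Fin n) ℤ) := NoZeroDivisors.to_isDomain _
  rw [← det_prod_erase _ _ hinj, ← det_transpose, det_apply', Finset.sum_mul]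
  apply Finset.sum_congr rfl
  intro κ _
  rw [mul_assoc]
  congr 1
  have h2 : PP = (∏ p ∈ Sk κ, UU p) * ∏ p ∈ (Sk κ)ᶜ, UU p := by
    rw [hPP, Finset.prod_mul_prod_compl]
  rw [h2, ← mul_assoc, PS_mul_prod, one_mul, prod_Sk_compl]
  rfl

/-- The exponent vector. -/
noncomputable def mon (a b : Fin n → ℕ) : Fin n ⊕ Fin n →₀ ℕ := Finsupp.equivFunOnFinite.symm (Sum.elim a b)

@[simp] lemma mon_inl (a b : Fin n → ℕ) (i : Fin n) : mon a b (Sum.inl i) = a i := rfl
@[simp] lemma mon_inr (a b : Fin n → ℕ) (i : Fin n) : mon a b (Sum.inr i) = b i := rfl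

lemma prod_monomial {ι : Type*} (s : Finset ι) (f : ι → (Fin n ⊕ Fin n →₀ ℕ)) :
    ∏ i ∈ s, (monomial (f i) (1 : ℤ) : MvPowerSeries (Fin n ⊕ Fin n) ℤ) = monomial (∑ i ∈ s, f i) 1 := by
  classical
  induction s using Finset.induction_on with
  | empty => simp [monomial_zero_eq_C_apply]
  | insert a s ha ih =>
    rw [Finset.prod_insert ha, Finset.sum_insert ha, ih, monomial_mul_monomial, mul_one]

lemma prod_X_inl (a : Fin n → ℕ) :
    ∏ i, (X (Sum.inl i) : MvPowerSeries (Fin n ⊕ Fin n) ℤ) ^ a i = monomial (mon a 0) 1 := by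
  classical
  simp only [X_pow_eq]
  rw [prod_monomial]
  have : ∑ i, Finsupp.single (Sum.inl i : Fin n ⊕ Fin n) (a i) = mon a 0 := by
    ext x
    rw [Finsupp.finsetSum_apply]
    rcases x with i | j
    · rw [Finset.sum_eq_single i]
      · simp
      · intro b _ hb
        simp [hb]
      · simp
    · simp
  rw [this]

lemma prod_X_inr (a : Fin n → ℕ) :
    ∏ i, (X (Sum.inr i) : MvPowerSeries (Fin n ⊕ Fin n) ℤ) ^ a i = monomial (mon 0 a) 1 := by
  classical
  simp only [X_pow_eq]
  rw [prod_monomial]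
  have : ∑ i, Finsupp.single (Sum.inr i : Fin n ⊕ Fin n) (a i) = mon 0 a := by
    ext x
    rw [Finsupp.finsetSum_apply]
    rcases x with i | j
    · simp
    · rw [Finset.sum_eq_single j]
      · simp
      · intro b _ hb
        simp [hb]
      · simp
  rw [this]

lemma det_vand_inl : (vandermonde (fun i : Fin n => (X (Sum.inl i) : MvPowerSeries (Fin n ⊕ Fin n) ℤ))).det =
    ∑ κ : Equiv.Perm (Fin n), ((Equiv.Perm.sign κ : ℤ) : MvPowerSeries (Fin n ⊕ Fin n) ℤ) *
      monomial (mon (fun i => (κ i).val) 0) 1 := by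
  rw [← det_transpose, det_apply']
  apply Finset.sum_congr rfl
  intro κ _
  rw [← prod_X_inl]
  rfl

lemma det_vand_inr : (vandermonde (fun i : Fin n => (X (Sum.inr i) : MvPowerSeries (Fin n ⊕ Fin n) ℤ))).det =
    ∑ κ : Equiv.Perm (Fin n), ((Equiv.Perm.sign κ : ℤ) : MvPowerSeries (Fin n ⊕ Fin n) ℤ) *
      monomial (mon 0 (fun i => (κ i).val)) 1 := by
  rw [← det_transpose, det_apply']
  apply Finset.sum_congr rfl
  intro κ _
  rw [← prod_X_inr]
  rfl

lemma mon_add (a b : Fin n → ℕ) : mon a 0 + mon 0 b = mon a b := by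
  ext x
  rcases x with i | j <;> simp

lemma mon_le_iff (a b c d : Fin n → ℕ) : mon a b ≤ mon c d ↔ (∀ i, a i ≤ c i) ∧ ∀ i, b i ≤ d i := by
  constructor
  · intro h
    exact ⟨fun i => h (Sum.inl i), fun i => h (Sum.inr i)⟩
  · rintro ⟨h1, h2⟩ x
    rcases x with i | j
    · exact h1 i
    · exact h2 j

lemma perm_eq_one_of_strictMono {κ : Equiv.Perm (Fin n)} (h : StrictMono κ) : κ = 1 := by
  have h' : StrictMono (κ⁻¹ : Equiv.Perm (Fin n)) := by
    intro a b hab
    apply h.lt_iff_lt.mp
    simpa using hab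
  ext i
  have h1 : i ≤ κ i := h.le_apply
  have h2 : κ i ≤ κ⁻¹ (κ i) := h'.le_apply
  have h3 : κ⁻¹ (κ i) = i := by simp
  rw [h3] at h2
  rw [le_antisymm h2 h1]
  rfl

lemma eq_of_comp_perm {l l' : Fin n → ℕ} (hl : StrictMono l) (hl' : StrictMono l') {κ : Equiv.Perm (Fin n)}
    (h : ∀ i, l i = l' (κ i)) : κ = 1 ∧ l = l' := by
  have hk : StrictMono κ := by
    intro a b hab
    have := hl hab
    rw [h, h] at this
    exact hl'.lt_iff_lt.mp this
  have h1 := perm_eq_one_of_strictMono hk
  refine ⟨h1, ?_⟩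
  funext i
  rw [h, h1]
  rfl

/-- The alternating double sum of table counts. -/
theorem sum_sign_tables {l l' : Fin n → ℕ} (hl : StrictMono l) (hl' : StrictMono l') :
    ∑ κ : Equiv.Perm (Fin n), ∑ κ' : Equiv.Perm (Fin n), ((Equiv.Perm.sign κ : ℤ) * (Equiv.Perm.sign κ' : ℤ)) *
      (if (∀ i, (κ i).val ≤ l i) ∧ (∀ i, (κ' i).val ≤ l' i) then
        (NS Finset.univ (fun i => l i - (κ i).val) (fun i => l' i - (κ' i).val) : ℤ) else 0) =
    if l = l' then 1 else 0 := by
  classical
  have h := congrArg (coeff (mon l l')) (cauchy_series (n := n))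
  rw [det_vand_inl, det_vand_inr, Finset.sum_mul_sum] at h
  simp only [Finset.sum_mul, map_sum] at h
  have h1 : ∀ κ κ' : Equiv.Perm (Fin n),
      coeff (mon l l') (((Equiv.Perm.sign κ : ℤ) : MvPowerSeries (Fin n ⊕ Fin n) ℤ) * monomial (mon (fun i => (κ i).val) 0) 1 *
        (((Equiv.Perm.sign κ' : ℤ) : MvPowerSeries (Fin n ⊕ Fin n) ℤ) * monomial (mon 0 (fun i => (κ' i).val)) 1) * PS Finset.univ) =
      ((Equiv.Perm.sign κ : ℤ) * (Equiv.Perm.sign κ' : ℤ)) *
      (if (∀ i, (κ i).val ≤ l i) ∧ (∀ i, (κ' i).val ≤ l' i) then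
        (NS Finset.univ (fun i => l i - (κ i).val) (fun i => l' i - (κ' i).val) : ℤ) else 0) := by
    intro κ κ'
    have e : ((Equiv.Perm.sign κ : ℤ) : MvPowerSeries (Fin n ⊕ Fin n) ℤ) * monomial (mon (fun i => (κ i).val) 0) 1 *
        (((Equiv.Perm.sign κ' : ℤ) : MvPowerSeries (Fin n ⊕ Fin n) ℤ) * monomial (mon 0 (fun i => (κ' i).val)) 1) * PS Finset.univ =
        (((Equiv.Perm.sign κ : ℤ) * (Equiv.Perm.sign κ' : ℤ) : ℤ) : MvPowerSeries (Fin n ⊕ Fin n) ℤ) *
          (monomial (mon (fun i => (κ i).val) (fun i => (κ' i).val)) 1 * PS Finset.univ) := by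
      have e0 : (monomial (mon (fun i => (κ i).val) 0) (1 : ℤ) : MvPowerSeries (Fin n ⊕ Fin n) ℤ) * monomial (mon 0 (fun i => (κ' i).val)) 1 =
          monomial (mon (fun i => (κ i).val) (fun i => (κ' i).val)) 1 := by
        rw [monomial_mul_monomial, mon_add, mul_one]
      rw [← e0]
      push_cast
      ring
    rw [e, ← zsmul_eq_mul, map_zsmul, smul_eq_mul, coeff_monomial_mul]
    congr 1
    by_cases h2 : (∀ i, (κ i).val ≤ l i) ∧ (∀ i, (κ' i).val ≤ l' i)
    · rw [if_pos ((mon_le_iff _ _ _ _).mpr h2), if_pos h2, one_mul, coeff_PS]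
      rfl
    · rw [if_neg (fun h => h2 ((mon_le_iff _ _ _ _).mp h)), if_neg h2]
  simp only [h1] at h
  rw [h]
  have h2 : ∀ κ : Equiv.Perm (Fin n), coeff (mon l l') (((Equiv.Perm.sign κ : ℤ) : MvPowerSeries (Fin n ⊕ Fin n) ℤ) * PS (Sk κ)) =
      (Equiv.Perm.sign κ : ℤ) * (if ∀ i, l i = l' (κ i) then 1 else 0) := by
    intro κ
    have e1 : NS (Sk κ) (fun i => mon l l' (Sum.inl i)) (fun j => mon l l' (Sum.inr j)) =
        if ∀ i, l i = l' (κ i) then 1 else 0 := NS_Sk κ l l'
    rw [← zsmul_eq_mul, map_zsmul, smul_eq_mul, coeff_PS, e1]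
    by_cases h3 : ∀ i, l i = l' (κ i)
    · rw [if_pos h3, if_pos h3]
      simp
    · rw [if_neg h3, if_neg h3]
      simp
  simp only [h2]
  by_cases he : l = l'
  · rw [if_pos he, Finset.sum_eq_single 1]
    · subst he
      simp
    · intro κ _ hκ
      rw [if_neg, mul_zero]
      intro h3
      exact hκ (eq_of_comp_perm hl hl' h3).1
    · simp
  · rw [if_neg he]
    apply Finset.sum_eq_zero
    intro κ _
    rw [if_neg, mul_zero]
    intro h3
    exact he (eq_of_comp_perm hl hl' h3).2

lemma NT_eq_NS (a b : Fin n → ℕ) : NT a b = NS Finset.univ a b := by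
  unfold NT NS
  apply Nat.card_congr
  refine ⟨fun M => ⟨M.1, fun p hp => absurd (Finset.mem_univ p) hp, M.2⟩, fun M => ⟨M.1, M.2.2⟩, fun _ => rfl, fun _ => rfl⟩

end Cfsg.Agent.Lib.Classical.Flags
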